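import Mathlib

/-!
# The commutant of an irreducible action on a finite abelian group
-/

set_option autoImplicit false
set_option linter.style.haveILetI false

namespace CfsgLib.OutSylowTwo

variable {L U : Type*} [Group L] [AddCommGroup U] (ρ : L →* AddMonoid.End U)

/-- An invariant subgroup. -/
def IsInv (W : AddSubgroup U) : Prop := ∀ g : L, ∀ x ∈ W, ρ g x ∈ W

/-- An irreducible action. -/
def IsIrr : Prop := Nontrivial U ∧ ∀ W : AddSubgroup U, IsInv ρ W → W = ⊥ ∨ W = ⊤

/-- The endomorphisms commuting with the action. -/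
def commutant : Subring (AddMonoid.End U) where
  carrier := {f | ∀ g x, f (ρ g x) = ρ g (f x)}
  mul_mem' := fun {a b} ha hb g x => by
    show a (b (ρ g x)) = ρ g (a (b x))
    rw [hb, ha]
  one_mem' := fun _ _ => rfl
  add_mem' := fun {a b} ha hb g x => by
    show a (ρ g x) + b (ρ g x) = ρ g (a x + b x)
    rw [ha, hb, map_add]
  zero_mem' := fun g x => by
    show (0 : U) = ρ g 0
    rw [map_zero]
  neg_mem' := fun {a} ha g x => by
    show -(a (ρ g x)) = ρ g (-(a x))
    rw [ha, map_neg]

theorem mem_commutant {f : AddMonoid.End U} :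
    f ∈ commutant ρ ↔ ∀ g x, f (ρ g x) = ρ g (f x) := Iff.rfl

variable {ρ} [Finite U]

theorem finite_commutant : Finite (commutant ρ) :=
  haveI : Finite (AddMonoid.End U) :=
    Finite.of_injective (fun f : AddMonoid.End U => (⇑f : U → U)) DFunLike.coe_injective
  Subtype.finite

/-- A non-zero element of the commutant is bijective. -/
theorem bijective_of_ne_zero (h : IsIrr ρ) {f : AddMonoid.End U} (hf : f ∈ commutant ρ)
    (hf0 : f ≠ 0) : Function.Bijective f := by
  let K : AddSubgroup U := AddMonoidHom.ker (f : U →+ U)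
  have hK : IsInv ρ K := fun g x hx => by
    show f (ρ g x) = 0
    rw [hf g x, show f x = 0 from hx, map_zero]
  have hinj : Function.Injective f := by
    rcases h.2 K hK with e | e
    · exact (AddMonoidHom.ker_eq_bot_iff (f : U →+ U)).1 e
    · refine absurd ?_ hf0
      ext x
      exact (e ▸ AddSubgroup.mem_top x : x ∈ K)
  exact ⟨hinj, Finite.surjective_of_injective hinj⟩

theorem eq_zero_of_apply_eq_zero (h : IsIrr ρ) {f : AddMonoid.End U} (hf : f ∈ commutant ρ)
    {x : U} (hx : x ≠ 0) (hfx : f x = 0) : f = 0 := by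
  by_contra hf0
  exact hx ((bijective_of_ne_zero h hf hf0).1 (hfx.trans (map_zero f).symm))

theorem isDomain_commutant (h : IsIrr ρ) : IsDomain (commutant ρ) := by
  haveI := h.1
  haveI : Nontrivial (commutant ρ) := by
    obtain ⟨x, hx⟩ := exists_ne (0 : U)
    exact ⟨⟨0, 1, fun e => hx (DFunLike.congr_fun (congrArg Subtype.val e) x).symm⟩⟩
  haveI : NoZeroDivisors (commutant ρ) := ⟨fun {a b} hab => by
    by_contra hcon
    push_neg at hcon
    refine hcon.2 (Subtype.ext ?_)
    ext x
    have ha := bijective_of_ne_zero h a.2 fun e => hcon.1 (Subtype.ext e)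
    exact ha.1 ((DFunLike.congr_fun (congrArg Subtype.val hab) x).trans (map_zero _).symm)⟩
  exact NoZeroDivisors.to_isDomain _

/-- The commutant is commutative. -/
theorem commutant_comm (h : IsIrr ρ) (a b : commutant ρ) : a * b = b * a := by
  haveI := isDomain_commutant h
  haveI := finite_commutant (ρ := ρ)
  exact (Finite.isDomain_to_isField (commutant ρ)).mul_comm a b

/-- Division in the commutant. -/
theorem exists_mul_eq (h : IsIrr ρ) {a : commutant ρ} (ha : a ≠ 0) (b : commutant ρ) :
    ∃ c, c * a = b := by
  haveI := isDomain_commutant h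
  haveI := finite_commutant (ρ := ρ)
  exact Finite.surjective_of_injective (mul_left_injective₀ ha) b

/-- A group of automorphisms commuting with an irreducible action is cyclic. -/
theorem isCyclic_of_commute (h : IsIrr ρ) {C : Type*} [Group C] [Finite C]
    (f : C →* AddMonoid.End U) (hf : Function.Injective f)
    (hC : ∀ c g x, f c (ρ g x) = ρ g (f c x)) : IsCyclic C := by
  haveI := isDomain_commutant h
  letI : CommRing (commutant ρ) := { (inferInstance : Ring (commutant ρ)) with
    mul_comm := commutant_comm h }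
  haveI : IsDomain (commutant ρ) := isDomain_commutant h
  let f' : C →* commutant ρ :=
    { toFun := fun c => ⟨f c, hC c⟩
      map_one' := Subtype.ext (map_one f)
      map_mul' := fun a b => Subtype.ext (map_mul f a b) }
  exact isCyclic_of_injective_ringHom f' fun a b e => hf (congrArg Subtype.val e)

omit [Finite U] in
theorem inv_apply_apply (g : L) (x : U) : ρ g⁻¹ (ρ g x) = x := by
  show (ρ g⁻¹ * ρ g) x = x
  rw [← map_mul, inv_mul_cancel, map_one]
  rfl

omit [Finite U] in
theorem apply_inv_apply (g : L) (x : U) : ρ g (ρ g⁻¹ x) = x := by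
  show (ρ g * ρ g⁻¹) x = x
  rw [← map_mul, mul_inv_cancel, map_one]
  rfl

end CfsgLib.OutSylowTwo
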