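import Cfsg.Agent.OutSylowTwo.Zero
import Cfsg.Agent.OutSylowTwo.Field
import Cfsg.Agent.OddStep.Interface
import Cfsg.Agent.Transfer.NormalPComplement

/-!
# Perfect groups preserving anisotropic quadratic functions

A finite perfect group acting on a finite elementary abelian 2-group and leaving invariant
enough quadratic functions to separate every non-zero vector from zero acts trivially.
-/

set_option autoImplicit false
set_option linter.style.haveILetI false

namespace CfsgLib.OutSylowTwo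

universe u

variable {L : Type*} [Group L]

/-- A homomorphism with commuting values on a perfect group is trivial. -/
theorem eq_one_of_perfect {M : Type*} [Monoid M] (hL : commutator L = ⊤) (f : L →* M)
    (hf : ∀ a b, f a * f b = f b * f a) (a : L) : f a = 1 := by
  have h : commutator L ≤ f.toHomUnits.ker := by
    rw [commutator_def, Subgroup.commutator_le]
    intro a _ b _
    rw [MonoidHom.mem_ker, map_commutatorElement, commutatorElement_eq_one_iff_mul_comm]
    exact Units.ext (hf a b)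
  exact congrArg Units.val (MonoidHom.mem_ker.1 (h (hL ▸ Subgroup.mem_top a)))

theorem derivedSeries_eq_top {H : Type*} [Group H] (hH : commutator H = ⊤) :
    ∀ n, derivedSeries H n = ⊤
  | 0 => rfl
  | n + 1 => by rw [derivedSeries_succ, derivedSeries_eq_top hH n, ← commutator_def, hH]

theorem subsingleton_of_perfect_solvable {H : Type*} [Group H] (hH : commutator H = ⊤)
    (hs : Group.IsSolvable H) : Subsingleton H := by
  obtain ⟨n, hn⟩ := (Group.isSolvable_def H).1 hs
  rw [derivedSeries_eq_top hH] at hn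
  exact Subgroup.subsingleton_iff.1 (subsingleton_of_bot_eq_top hn.symm)

/-- A perfect group with Sylow 2-subgroups of order at most two is trivial. -/
theorem subsingleton_of_perfect_sylow (hFT : CfsgLib.OddStep.P0205.{u}) {H : Type u} [Group H]
    [Finite H] (hH : commutator H = ⊤) (T : Sylow 2 H) (hT : Nat.card T ≤ 2) : Subsingleton H := by
  haveI : Fact (Nat.Prime 2) := ⟨Nat.prime_two⟩
  by_cases hodd : Odd (Nat.card H)
  · exact subsingleton_of_perfect_solvable hH (hFT hodd)
  exfalso
  have hT2 : Nat.card T = 2 := by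
    have : 2 ∣ Nat.card T :=
      T.dvd_card_of_dvd_card (even_iff_two_dvd.1 (Nat.not_odd_iff_even.1 hodd))
    have h0 : 0 < Nat.card T := Nat.card_pos
    have := Nat.le_of_dvd h0 this
    omega
  have hle : Subgroup.normalizer ((T : Subgroup H) : Set H) ≤
      Subgroup.centralizer ((T : Subgroup H) : Set H) := by
    intro g hg
    rw [Subgroup.mem_centralizer_iff]
    intro t ht
    rcases eq_or_ne t 1 with rfl | ht1
    · simp
    · have huniq : ∀ s : T, s ≠ 1 → s = ⟨t, ht⟩ := by
        intro s hs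
        obtain ⟨a, b, hab, he⟩ := Nat.card_eq_two_iff.1 hT2
        have hx : ∀ y : T, y = a ∨ y = b := fun y => by
          have : y ∈ ({a, b} : Set T) := he ▸ Set.mem_univ y
          simpa using this
        have ht' : (⟨t, ht⟩ : T) ≠ 1 := fun e => ht1 (congrArg Subtype.val e)
        rcases hx 1 with h1 | h1 <;> rcases hx s with h2 | h2 <;> rcases hx ⟨t, ht⟩ with h3 | h3
        all_goals first
          | exact h2.trans h3.symm
          | exact absurd (h2.trans h1.symm) hs
          | exact absurd (h3.trans h1.symm) ht'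
      have hc : g * t * g⁻¹ ∈ (T : Subgroup H) := ((Subgroup.mem_normalizer_iff.1 hg) t).1 ht
      have := huniq ⟨_, hc⟩ fun e => ht1 (by
        have : g * t * g⁻¹ = 1 := congrArg Subtype.val e
        simpa using this)
      exact (mul_inv_eq_iff_eq_mul.1 (congrArg Subtype.val this)).symm
  obtain ⟨N, hN, hc⟩ := CfsgLib.Transfer.exists_isComplement'
    (CfsgLib.Transfer.hasNormalPComplement_of_normalizer_le_centralizer T hle) T
  haveI := hN
  have hidx : N.index = 2 := hc.symm.index_eq_card.trans hT2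
  haveI : IsCyclic (H ⧸ N) := isCyclic_of_prime_card (p := 2) hidx
  have hle : commutator H ≤ N := by
    rw [commutator_def, Subgroup.commutator_le]
    intro a _ b _
    rw [← QuotientGroup.eq_one_iff, ← QuotientGroup.mk'_apply, map_commutatorElement,
      commutatorElement_eq_one_iff_mul_comm]
    exact IsCyclic.commGroup.mul_comm _ _
  rw [hH, top_le_iff] at hle
  rw [hle, Subgroup.index_top] at hidx
  omega

theorem zmod_eq_one {a : ZMod 2} (h : a ≠ 0) : a = 1 := by
  fin_cases a
  · exact absurd rfl h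
  · rfl

section Quad

variable {V : Type*} [AddCommGroup V]

theorem polar_zero_left {f : V → ZMod 2} (hf : IsQuad f) (y : V) : polar f 0 y = 0 := by
  unfold polar
  rw [zero_add, hf.1, add_zero, CharTwo.add_self_eq_zero]

theorem polar_self {f : V → ZMod 2} (hf : IsQuad f) (hV : ∀ x : V, x + x = 0) (x : V) :
    polar f x x = 0 := by
  unfold polar
  rw [hV, hf.1, zero_add, CharTwo.add_self_eq_zero]

theorem IsQuad.apply_add (f : V → ZMod 2) (x y : V) : f (x + y) = f x + f y + polar f x y := by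
  unfold polar
  linear_combination (-1 : ZMod 2) * ((CharTwo.add_self_eq_zero (f x)) + (CharTwo.add_self_eq_zero (f y)))

/-- The polar as a biadditive map. -/
def polarHom {f : V → ZMod 2} (hf : IsQuad f) : V →+ V →+ ZMod 2 :=
  AddMonoidHom.mk' (fun x => AddMonoidHom.mk' (fun y => polar f x y) (hf.polar_add_right x))
    fun x y => AddMonoidHom.ext fun z => hf.2 x y z

theorem polarHom_apply {f : V → ZMod 2} (hf : IsQuad f) (x y : V) :
    polarHom hf x y = polar f x y := rfl

theorem IsQuad.comp {W : Type*} [AddCommGroup W] {f : V → ZMod 2} (hf : IsQuad f) (j : W →+ V) :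
    IsQuad fun w => f (j w) := by
  refine ⟨by simp [hf.1], fun x y z => ?_⟩
  simpa [polar, map_add] using hf.2 (j x) (j y) (j z)

theorem IsQuad.add {f f' : V → ZMod 2} (hf : IsQuad f) (hf' : IsQuad f') : IsQuad (f + f') := by
  refine ⟨by simp [hf.1, hf'.1], fun x y z => ?_⟩
  have h1 := hf.2 x y z
  have h2 := hf'.2 x y z
  simp only [polar, Pi.add_apply] at h1 h2 ⊢
  linear_combination h1 + h2

theorem isQuad_zero : IsQuad (0 : V → ZMod 2) := ⟨rfl, fun x y z => by simp [polar]⟩

variable (ρ : L →* AddMonoid.End V)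

/-- The invariant quadratic functions. -/
def invQuad : AddSubgroup (V → ZMod 2) where
  carrier := {f | IsQuad f ∧ ∀ g x, f (ρ g x) = f x}
  zero_mem' := ⟨isQuad_zero, fun _ _ => rfl⟩
  add_mem' := fun {a b} ha hb => ⟨ha.1.add hb.1, fun g x => by simp [ha.2, hb.2]⟩
  neg_mem' := fun {a} ha => by
    have : -a = a := funext fun x => CharTwo.neg_eq _
    rwa [this]

variable {ρ}

theorem polar_invariant {f : V → ZMod 2} (hf : f ∈ invQuad ρ) (g : L) (x y : V) :
    polar f (ρ g x) (ρ g y) = polar f x y := by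
  unfold polar
  rw [← map_add, hf.2, hf.2, hf.2]

/-- The subgroup of fixed vectors. -/
def fixSub (ρ : L →* AddMonoid.End V) : AddSubgroup V where
  carrier := {x | ∀ g, ρ g x = x}
  zero_mem' := fun g => map_zero _
  add_mem' := fun {a b} ha hb g => by rw [map_add, ha, hb]
  neg_mem' := fun {a} ha g => by rw [map_neg, ha]

theorem isInv_fixSub : IsInv ρ (fixSub ρ) := fun g x hx => by rwa [hx g]

/-- The radical of the polar of a function. -/
def radSub {f : V → ZMod 2} (hf : IsQuad f) : AddSubgroup V := (polarHom hf).ker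

theorem mem_radSub {f : V → ZMod 2} (hf : IsQuad f) {x : V} :
    x ∈ radSub hf ↔ ∀ y, polar f x y = 0 := by
  show polarHom hf x = 0 ↔ _
  exact ⟨fun h y => DFunLike.congr_fun h y, fun h => AddMonoidHom.ext h⟩

end Quad

/-- **A perfect group preserving anisotropic quadratic functions acts trivially.** -/
theorem aniso_trivial (hFT : CfsgLib.OddStep.P0205.{u}) [Finite L] (hL : commutator L = ⊤) :
    ∀ (n : ℕ) (V : Type u) [AddCommGroup V] [Finite V], Nat.card V = n →
    (∀ x : V, x + x = 0) → ∀ ρ : L →* AddMonoid.End V,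
    (∀ v : V, v ≠ 0 → ∃ f ∈ invQuad ρ, f v ≠ 0) → ∀ g v, ρ g v = v := by
  classical
  intro n
  induction n using Nat.strong_induction_on with
  | _ n ih =>
  intro V _ _ hn hV ρ hani
  by_contra hcon
  haveI : Fintype V := Fintype.ofFinite V
  haveI : Fact (Nat.Prime 2) := ⟨Nat.prime_two⟩
  -- proper invariant subgroups are fixed
  have hprop : ∀ W : AddSubgroup V, IsInv ρ W → W ≠ ⊤ → W ≤ fixSub ρ := by
    intro W hW hWt x hx g
    have hlt : Nat.card W < n := by
      rcases Nat.lt_or_ge (Nat.card W) n with h | h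
      · exact h
      · exact absurd (AddSubgroup.eq_top_of_le_card W (hn.le.trans h)) hWt
    let ρW : L →* AddMonoid.End W :=
      { toFun := fun g => AddMonoidHom.mk' (fun w => ⟨ρ g w, hW g w w.2⟩) fun a b =>
          Subtype.ext (map_add (ρ g) (a : V) b)
        map_one' := AddMonoidHom.ext fun w => Subtype.ext (by
          show ρ 1 (w : V) = (w : V)
          rw [map_one]; rfl)
        map_mul' := fun a b => AddMonoidHom.ext fun w => Subtype.ext (by
          show ρ (a * b) (w : V) = ρ a (ρ b (w : V))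
          rw [map_mul]; rfl) }
    have h := ih _ hlt W rfl (fun x => Subtype.ext (hV x)) ρW (fun v hv => by
      obtain ⟨f, hf, hfv⟩ := hani v fun e => hv (Subtype.ext e)
      exact ⟨fun w => f w, ⟨hf.1.comp W.subtype, fun g w => hf.2 g w⟩, hfv⟩) g ⟨x, hx⟩
    exact congrArg Subtype.val h
  -- the commutator is everything
  let C : AddSubgroup V := AddSubgroup.closure {y | ∃ g v, y = ρ g v - v}
  have hCinv : IsInv ρ C := by
    intro g x hx
    refine AddSubgroup.closure_induction (p := fun x _ => ρ g x ∈ C) ?_ ?_ ?_ ?_ hx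
    · rintro _ ⟨h, v, rfl⟩
      refine AddSubgroup.subset_closure ⟨g * h * g⁻¹, ρ g v, ?_⟩
      rw [map_sub, map_mul, map_mul]
      show ρ g (ρ h v) - ρ g v = ρ g (ρ h (ρ g⁻¹ (ρ g v))) - ρ g v
      rw [inv_apply_apply]
    · rw [map_zero]; exact zero_mem _
    · intro a b _ _ ha hb; rw [map_add]; exact add_mem ha hb
    · intro a _ ha; rw [map_neg]; exact neg_mem ha
  have hCtop : C = ⊤ := by
    by_contra hne
    apply hcon
    intro g v
    have hfix := hprop C hCinv hne
    let f : L →* Multiplicative V :=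
      { toFun := fun g => Multiplicative.ofAdd (ρ g v - v)
        map_one' := by rw [map_one]; simp
        map_mul' := fun a b => by
          rw [← ofAdd_add]
          congr 1
          have : ρ a (ρ b v - v) = ρ b v - v := hfix (AddSubgroup.subset_closure ⟨b, v, rfl⟩) a
          rw [map_mul]
          show ρ a (ρ b v) - v = _
          rw [map_sub] at this
          rw [← this]; abel }
    exact sub_eq_zero.1 (Multiplicative.ofAdd.injective
      (eq_one_of_perfect hL f (fun a b => mul_comm _ _) g))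
  -- fixed vectors are orthogonal to everything
  have horth : ∀ f (hf : f ∈ invQuad ρ), fixSub ρ ≤ radSub hf.1 := by
    intro f hf x hx
    rw [mem_radSub]
    intro y
    have : C ≤ (polarHom hf.1 x).ker := by
      rw [AddSubgroup.closure_le]
      rintro _ ⟨g, v, rfl⟩
      show polarHom hf.1 x (ρ g v - v) = 0
      rw [map_sub, polarHom_apply, polarHom_apply]
      nth_rewrite 1 [← hx g]
      rw [polar_invariant hf, sub_self]
    exact this (hCtop ▸ AddSubgroup.mem_top y)
  set F := fixSub ρ with hFdef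
  have hFt : F ≠ ⊤ := fun e => hcon fun g v => (e ▸ AddSubgroup.mem_top v : v ∈ F) g
  -- a function with radical `F`
  obtain ⟨f₀, hf₀, hrad⟩ : ∃ f₀, ∃ hf : f₀ ∈ invQuad ρ, radSub hf.1 ≤ F := by
    by_contra hno
    push_neg at hno
    apply hcon
    intro g v
    rw [← sub_eq_zero]
    by_contra hne
    obtain ⟨f, hf, hfv⟩ := hani _ hne
    have ht : radSub hf.1 = ⊤ := by
      by_contra h
      refine hno f hf (hprop _ (fun g x hx => ?_) h)
      rw [mem_radSub] at hx ⊢
      intro y
      rw [← apply_inv_apply (ρ := ρ) g y, polar_invariant hf, hx]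
    apply hfv
    have hz : ∀ a b, polar f a b = 0 := fun a b =>
      (mem_radSub hf.1).1 (ht ▸ AddSubgroup.mem_top a) b
    have h1 := IsQuad.apply_add f (ρ g v - v) v
    rw [sub_add_cancel, hz, add_zero, hf.2] at h1
    linear_combination -h1
  -- the irreducible quotient
  have hFinv : ∀ g, F ≤ F.comap (ρ g : V →+ V) := fun g x hx => isInv_fixSub g x hx
  let π : V →+ V ⧸ F := QuotientAddGroup.mk' F
  have hπ : Function.Surjective π := QuotientAddGroup.mk'_surjective F
  let ρU : L →* AddMonoid.End (V ⧸ F) :=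
    { toFun := fun g => QuotientAddGroup.map F F (ρ g : V →+ V) (hFinv g)
      map_one' := AddMonoidHom.ext fun u => by
        obtain ⟨v, rfl⟩ := hπ u
        show π (ρ 1 v) = π v
        rw [map_one]; rfl
      map_mul' := fun a b => AddMonoidHom.ext fun u => by
        obtain ⟨v, rfl⟩ := hπ u
        show π (ρ (a * b) v) = π (ρ a (ρ b v))
        rw [map_mul]; rfl }
  have hρU : ∀ g v, ρU g (π v) = π (ρ g v) := fun g v => rfl
  have hirr : IsIrr ρU := by
    refine ⟨?_, fun W hW => ?_⟩
    · refine ((not_subsingleton_iff_nontrivial).1 fun hs => hFt ?_)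
      rw [eq_top_iff]
      intro v _
      exact (QuotientAddGroup.eq_zero_iff v).1 (Subsingleton.elim _ _)
    · by_cases ht : W.comap π = ⊤
      · right
        rw [eq_top_iff]
        intro u _
        obtain ⟨v, rfl⟩ := hπ u
        exact (ht ▸ AddSubgroup.mem_top v : v ∈ W.comap π)
      · left
        have hle := hprop (W.comap π) (fun g x hx => by
          show π (ρ g x) ∈ W
          rw [← hρU]; exact hW g _ hx) ht
        rw [eq_bot_iff]
        intro u hu
        obtain ⟨v, rfl⟩ := hπ u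
        exact (QuotientAddGroup.eq_zero_iff v).2 (hle hu)
  have hncomm : ¬ ∀ a b, ρU a * ρU b = ρU b * ρU a := by
    intro hc
    apply hFt
    rw [eq_top_iff, ← hCtop, AddSubgroup.closure_le]
    rintro _ ⟨g, v, rfl⟩
    refine (QuotientAddGroup.eq_zero_iff _).1 ?_
    show π (ρ g v - v) = 0
    rw [map_sub, ← hρU, eq_one_of_perfect hL ρU hc g]
    exact sub_self _
  -- descended polars
  have hdesc : ∀ f (hf : f ∈ invQuad ρ), ∃ B : V ⧸ F →+ (V ⧸ F) →+ ZMod 2,
      ∀ x y, B (π x) (π y) = polar f x y := by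
    intro f hf
    have h1 : ∀ x, F ≤ (polarHom hf.1 x).ker := fun x y hy => by
      show polar f x y = 0
      rw [polar_comm]; exact (mem_radSub hf.1).1 (horth f hf hy) x
    let B1 : V →+ (V ⧸ F) →+ ZMod 2 :=
      AddMonoidHom.mk' (fun x => QuotientAddGroup.lift F (polarHom hf.1 x) (h1 x)) fun a b =>
        AddMonoidHom.ext fun u => by
          obtain ⟨y, rfl⟩ := hπ u
          exact hf.1.2 a b y
    refine ⟨QuotientAddGroup.lift F B1 fun x hx => AddMonoidHom.ext fun u => ?_, fun x y => rfl⟩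
    obtain ⟨y, rfl⟩ := hπ u
    exact (mem_radSub hf.1).1 (horth f hf hx) y
  choose B hB using hdesc
  set β := B f₀ hf₀ with hβdef
  have hβ : ∀ x y, β (π x) (π y) = polar f₀ x y := hB f₀ hf₀
  have hsymm : ∀ f (hf : f ∈ invQuad ρ) u w, B f hf u w = B f hf w u := by
    intro f hf u w
    obtain ⟨x, rfl⟩ := hπ u
    obtain ⟨y, rfl⟩ := hπ w
    rw [hB, hB, polar_comm]
  have hinvB : ∀ f (hf : f ∈ invQuad ρ) g u w, B f hf (ρU g u) (ρU g w) = B f hf u w := by
    intro f hf g u w
    obtain ⟨x, rfl⟩ := hπ u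
    obtain ⟨y, rfl⟩ := hπ w
    rw [hρU, hρU, hB, hB, polar_invariant hf]
  have hUV : ∀ u : V ⧸ F, u + u = 0 := by
    intro u
    obtain ⟨x, rfl⟩ := hπ u
    rw [← map_add, hV, map_zero]
  have hβinj : Function.Injective β := by
    rw [← AddMonoidHom.ker_eq_bot_iff, eq_bot_iff]
    intro u hu
    obtain ⟨x, rfl⟩ := hπ u
    refine (QuotientAddGroup.eq_zero_iff x).2 (hrad ((mem_radSub hf₀.1).2 fun y => ?_))
    rw [← hβ]
    exact DFunLike.congr_fun hu (π y)
  have hβbij : Function.Bijective β := by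
    letI : Module (ZMod 2) (V ⧸ F) := AddCommGroup.zmodModule fun u => by rw [two_nsmul, hUV]
    have hcard : Nat.card ((V ⧸ F) →+ ZMod 2) = Nat.card (V ⧸ F) := by
      rw [Nat.card_congr (AddMonoidHom.toZModLinearMapEquiv 2
        (M := V ⧸ F) (M₁ := ZMod 2)).toEquiv,
        Module.natCard_eq_pow_finrank (K := ZMod 2) (V := Module.Dual (ZMod 2) (V ⧸ F)),
        Module.natCard_eq_pow_finrank (K := ZMod 2) (V := V ⧸ F), Subspace.dual_finrank_eq]
    haveI : Finite ((V ⧸ F) →+ ZMod 2) := Finite.of_injective _ DFunLike.coe_injective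
    exact ⟨hβinj, (Finite.injective_iff_surjective_of_equiv
      (Finite.equivFinOfCardEq hcard.symm |>.trans (Finite.equivFin _).symm)).1 hβinj⟩
  -- the endomorphism of a quadratic function
  let βe : (V ⧸ F) ≃+ ((V ⧸ F) →+ ZMod 2) := AddEquiv.ofBijective β hβbij
  let τ : ∀ f, f ∈ invQuad ρ → AddMonoid.End (V ⧸ F) :=
    fun f hf => (βe.symm.toAddMonoidHom.comp (B f hf) : (V ⧸ F) →+ (V ⧸ F))
  have hτ : ∀ f (hf : f ∈ invQuad ρ) u w, β (τ f hf u) w = B f hf u w := fun f hf u w =>
    DFunLike.congr_fun (βe.apply_symm_apply (B f hf u)) w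
  have hβinv : ∀ g u w, β (ρU g u) w = β u (ρU g⁻¹ w) := by
    intro g u w
    conv_lhs => rw [← apply_inv_apply (ρ := ρU) g w]
    exact hinvB f₀ hf₀ g _ _
  have hτmem : ∀ f (hf : f ∈ invQuad ρ), τ f hf ∈ commutant ρU := by
    intro f hf g u
    refine hβinj (AddMonoidHom.ext fun w => ?_)
    rw [hτ, hβinv, hτ]
    conv_lhs => rw [← apply_inv_apply (ρ := ρU) g w]
    exact hinvB f hf g _ _
  set E := commutant ρU with hEdef
  haveI : Finite E := finite_commutant
  let T : AddSubgroup E :=
    { carrier := {a : E | ∀ u w, β ((a : AddMonoid.End (V ⧸ F)) u) w =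
        β u ((a : AddMonoid.End (V ⧸ F)) w)}
      zero_mem' := fun u w => by
        show β 0 w = β u 0
        rw [map_zero, map_zero]; rfl
      add_mem' := fun {a b} ha hb u w => by
        show β ((a : AddMonoid.End (V ⧸ F)) u + (b : AddMonoid.End (V ⧸ F)) u) w =
          β u ((a : AddMonoid.End (V ⧸ F)) w + (b : AddMonoid.End (V ⧸ F)) w)
        rw [map_add, map_add, AddMonoidHom.add_apply, ha, hb]
      neg_mem' := fun {a} ha u w => by
        show β (-((a : AddMonoid.End (V ⧸ F)) u)) w = β u (-((a : AddMonoid.End (V ⧸ F)) w))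
        rw [map_neg, map_neg, AddMonoidHom.neg_apply, ha] }
  have hτT : ∀ f (hf : f ∈ invQuad ρ), (⟨τ f hf, hτmem f hf⟩ : E) ∈ T := by
    intro f hf u w
    show β (τ f hf u) w = β u (τ f hf w)
    rw [hτ, hsymm f hf, ← hτ f hf]
    exact hsymm f₀ hf₀ _ _
  have hτinj : ∀ f (hf : f ∈ invQuad ρ) f' (hf' : f' ∈ invQuad ρ),
      τ f hf = τ f' hf' → f = f' := by
    intro f hf f' hf' e
    have hsum := add_mem hf hf'
    have hz : ∀ a b, polar (f + f') a b = 0 := fun a b => by
      have h1 := hτ f hf (π a) (π b)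
      have h2 := hτ f' hf' (π a) (π b)
      rw [e, h2, hB, hB] at h1
      simp only [polar, Pi.add_apply] at h1 ⊢
      linear_combination h1 + CharTwo.add_self_eq_zero (f (a + b) + f a + f b)
    let φ : V →+ ZMod 2 := AddMonoidHom.mk' (f + f') fun a b => by
      rw [IsQuad.apply_add (f + f') a b, hz, add_zero]
    have hC0 : C ≤ φ.ker := by
      rw [AddSubgroup.closure_le]
      rintro _ ⟨g, v, rfl⟩
      show φ (ρ g v - v) = 0
      rw [map_sub, sub_eq_zero]
      exact hsum.2 g v
    funext x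
    have : (f + f') x = 0 := hC0 (hCtop ▸ AddSubgroup.mem_top x)
    simpa using CharTwo.add_eq_zero.1 this
  let Φ := invQuad ρ
  haveI : Fintype Φ := Fintype.ofFinite _
  let τ' : Φ → T := fun f => ⟨⟨τ f f.2, hτmem f f.2⟩, hτT f f.2⟩
  have hτ'inj : Function.Injective τ' := fun f f' e => Subtype.ext
    (hτinj f f.2 f' f'.2 (congrArg (fun a : T => ((a : E) : AddMonoid.End (V ⧸ F))) e))
  have hΦT : Nat.card Φ ≤ Nat.card T := Nat.card_le_card_of_injective τ' hτ'inj
  -- the bound on the order
  have hbound : Nat.card V ≤ Nat.card Φ ^ 2 := by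
    obtain ⟨k, hk⟩ : ∃ k, Nat.card V = 2 ^ k := by
      have hp : IsPGroup 2 (Multiplicative V) := fun x => ⟨1, by
        apply Multiplicative.toAdd.injective
        rw [toAdd_pow, pow_one, toAdd_one, two_nsmul, hV]⟩
      obtain ⟨k, hk⟩ := IsPGroup.iff_card.1 hp
      exact ⟨k, hk⟩
    by_contra hlt
    rw [not_le, hk, Nat.card_eq_fintype_card] at hlt
    obtain ⟨v, hv, hv0⟩ := exists_common_zero Φ (fun f hf => hf.1)
      (by rw [← Nat.card_eq_fintype_card, hk]) hlt
    obtain ⟨f, hf, hfv⟩ := hani v hv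
    exact hfv (hv0 f hf)
  have hUle : Nat.card (V ⧸ F) ≤ Nat.card V := Nat.card_le_card_of_surjective π hπ
  haveI := hirr.1
  obtain ⟨u₁, hu₁⟩ := exists_ne (0 : V ⧸ F)
  have heval : ∀ {u : V ⧸ F}, u ≠ 0 → Function.Injective
      fun a : E => (a : AddMonoid.End (V ⧸ F)) u := by
    intro u hu a b e
    by_contra hne
    have := eq_zero_of_apply_eq_zero hirr (a - b).2 hu (by
      show (a : AddMonoid.End (V ⧸ F)) u - (b : AddMonoid.End (V ⧸ F)) u = 0
      exact sub_eq_zero.2 e)
    exact hne (sub_eq_zero.1 (Subtype.ext this))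
  have hout : ∀ {u : V ⧸ F}, u ≠ 0 → ∃ w, ∀ a : E, (a : AddMonoid.End (V ⧸ F)) u ≠ w := by
    intro u hu
    by_contra hall
    push_neg at hall
    apply hncomm
    have hscal : ∀ g, ∃ a : E, ρU g = (a : AddMonoid.End (V ⧸ F)) := by
      intro g
      obtain ⟨a, ha⟩ := hall (ρU g u)
      refine ⟨a, AddMonoidHom.ext fun w => ?_⟩
      obtain ⟨b, rfl⟩ := hall w
      show ρU g ((b : AddMonoid.End (V ⧸ F)) u) = _
      rw [← b.2 g u, ← ha]
      exact DFunLike.congr_fun (congrArg Subtype.val (commutant_comm hirr b a)) u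
    intro g h
    obtain ⟨a, ha⟩ := hscal g
    obtain ⟨b, hb⟩ := hscal h
    rw [ha, hb]
    exact congrArg Subtype.val (commutant_comm hirr a b)
  have hElt : Nat.card E < Nat.card (V ⧸ F) := by
    obtain ⟨w, hw⟩ := hout hu₁
    haveI : Fintype E := Fintype.ofFinite _
    haveI : Fintype (V ⧸ F) := Fintype.ofFinite _
    rw [Nat.card_eq_fintype_card, Nat.card_eq_fintype_card]
    exact Fintype.card_lt_of_injective_not_surjective _ (heval hu₁) fun hs => by
      obtain ⟨a, ha⟩ := hs w; exact hw a ha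
  -- every element of the commutant is self-adjoint
  have hTall : ∀ a : E, a ∈ T := by
    by_contra hna
    push_neg at hna
    obtain ⟨σ, hσ⟩ := hna
    have hinj : Function.Injective fun p : T × T => (p.1 : E) + σ * (p.2 : E) := by
      rintro ⟨a, b⟩ ⟨a', b'⟩ e
      have e' : σ * ((b - b' : T) : E) = ((a' - a : T) : E) := by
        push_cast
        linear_combination (norm := noncomm_ring) e
      by_cases hb : b - b' = 0
      · rw [sub_eq_zero] at hb
        subst hb
        exact Prod.ext (Subtype.ext (add_right_cancel e)) rfl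
      exfalso
      apply hσ
      intro u w
      have hbij := bijective_of_ne_zero hirr ((b - b' : T) : E).2 fun h0 =>
        hb (Subtype.ext (Subtype.ext h0))
      obtain ⟨u', rfl⟩ := hbij.2 u
      have h1 := (a' - a).2 u' w
      rw [← e'] at h1
      refine h1.trans ?_
      rw [commutant_comm hirr σ]
      exact ((b - b').2 u' _).symm
    have := Nat.card_le_card_of_injective _ hinj
    rw [Nat.card_prod] at this
    have := Nat.pow_le_pow_left hΦT 2
    rw [sq (Nat.card T)] at this
    omega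
  have hTE : Nat.card T ≤ Nat.card E := Nat.card_le_card_of_injective _ Subtype.val_injective
  have hpair : ∀ {u w : V ⧸ F}, u ≠ 0 → (∀ a : E, (a : AddMonoid.End (V ⧸ F)) u ≠ w) →
      Function.Injective fun p : E × E =>
        (p.1 : AddMonoid.End (V ⧸ F)) u + (p.2 : AddMonoid.End (V ⧸ F)) w := by
    intro u w hu hw p p' e
    have e' : ((p.2 - p'.2 : E) : AddMonoid.End (V ⧸ F)) w =
        ((p'.1 - p.1 : E) : AddMonoid.End (V ⧸ F)) u := by
      show (p.2 : AddMonoid.End (V ⧸ F)) w - (p'.2 : AddMonoid.End (V ⧸ F)) w =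
        (p'.1 : AddMonoid.End (V ⧸ F)) u - (p.1 : AddMonoid.End (V ⧸ F)) u
      rw [sub_eq_sub_iff_add_eq_add, add_comm]
      simpa [add_comm] using e
    by_cases hb : p.2 - p'.2 = 0
    · rw [hb] at e'
      have h0 : p'.1 - p.1 = 0 := Subtype.ext
        (eq_zero_of_apply_eq_zero hirr (p'.1 - p.1).2 hu e'.symm)
      exact Prod.ext (sub_eq_zero.1 h0).symm (sub_eq_zero.1 hb)
    · exfalso
      obtain ⟨c, hc⟩ := exists_mul_eq hirr hb (p'.1 - p.1)
      refine hw c ((bijective_of_ne_zero hirr (p.2 - p'.2).2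
        fun h0 => hb (Subtype.ext h0)).1 ?_)
      rw [e', ← hc, commutant_comm hirr c]
      rfl
  have hE2 : Nat.card E * Nat.card E ≤ Nat.card (V ⧸ F) := by
    obtain ⟨w, hw⟩ := hout hu₁
    have := Nat.card_le_card_of_injective _ (hpair hu₁ hw)
    rwa [Nat.card_prod] at this
  have hsq : Nat.card Φ ^ 2 ≤ Nat.card T ^ 2 := Nat.pow_le_pow_left hΦT 2
  have hsq' : Nat.card T ^ 2 ≤ Nat.card E ^ 2 := Nat.pow_le_pow_left hTE 2
  have hUeq : Nat.card (V ⧸ F) = Nat.card V := by rw [sq (Nat.card E)] at hsq'; omega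
  have hUE : Nat.card (V ⧸ F) = Nat.card E * Nat.card E := by
    rw [sq (Nat.card E)] at hsq'; omega
  have hΦE : Nat.card Φ = Nat.card E := by
    have h1 : Nat.card Φ ^ 2 = Nat.card E ^ 2 := by rw [sq (Nat.card E)] at hsq' ⊢; omega
    exact (Nat.pow_left_injective (by norm_num)) h1
  have hπinj : Function.Injective π := by
    haveI : Fintype (V ⧸ F) := Fintype.ofFinite _
    rw [Nat.card_eq_fintype_card, Nat.card_eq_fintype_card] at hUeq
    exact ((Fintype.bijective_iff_surjective_and_card π).2 ⟨hπ, hUeq.symm⟩).1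
  have hτsurj : ∀ a : E, ∃ f : Φ, τ f f.2 = a := by
    intro a
    haveI : Fintype E := Fintype.ofFinite _
    have hinj : Function.Injective fun f : Φ => (⟨τ f f.2, hτmem f f.2⟩ : E) := fun f f' e =>
      Subtype.ext (hτinj f f.2 f' f'.2 (congrArg Subtype.val e))
    rw [Nat.card_eq_fintype_card, Nat.card_eq_fintype_card] at hΦE
    obtain ⟨f, hf⟩ := ((Fintype.bijective_iff_injective_and_card _).2 ⟨hinj, hΦE⟩).2 a
    exact ⟨f, congrArg Subtype.val hf⟩
  choose q hq using hτsurj
  let e : V ≃+ (V ⧸ F) := AddEquiv.ofBijective π ⟨hπinj, hπ⟩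
  let Q : E → (V ⧸ F) → ZMod 2 := fun a u => (q a : V → ZMod 2) (e.symm u)
  have hQ : ∀ (a : E) u w, Q a (u + w) = Q a u + Q a w + β ((a : AddMonoid.End (V ⧸ F)) u) w := by
    intro a u w
    obtain ⟨x, rfl⟩ := hπ u
    obtain ⟨y, rfl⟩ := hπ w
    rw [← hq a, hτ, hB, ← map_add]
    show (q a : V → ZMod 2) (e.symm (e (x + y))) =
      (q a : V → ZMod 2) (e.symm (e x)) + (q a : V → ZMod 2) (e.symm (e y)) + _
    rw [e.symm_apply_apply, e.symm_apply_apply, e.symm_apply_apply]
    exact IsQuad.apply_add _ x y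
  have hQinv : ∀ (a : E) g u, Q a (ρU g u) = Q a u := by
    intro a g u
    obtain ⟨x, rfl⟩ := hπ u
    rw [hρU]
    show (q a : V → ZMod 2) (e.symm (e (ρ g x))) = (q a : V → ZMod 2) (e.symm (e x))
    rw [e.symm_apply_apply, e.symm_apply_apply]
    exact (q a).2.2 g x
  have hQ0 : ∀ a, Q a 0 = 0 := fun a => by
    show (q a : V → ZMod 2) (e.symm 0) = 0
    rw [map_zero]; exact (q a).2.1.1
  -- a function pulled back by the commutant
  have hQuniq : ∀ (a : E) (h : (V ⧸ F) → ZMod 2), h 0 = 0 → (∀ g u, h (ρU g u) = h u) →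
      (∀ u w, h (u + w) = h u + h w + β ((a : AddMonoid.End (V ⧸ F)) u) w) → h = Q a := by
    intro a h h0 hinv hpol
    have hmem : (fun x => h (π x)) ∈ invQuad ρ := by
      refine ⟨⟨by simp [h0], fun x y z => ?_⟩, fun g x => by
        show h (π (ρ g x)) = h (π x)
        rw [← hρU, hinv]⟩
      simp only [polar, map_add, hpol, AddMonoidHom.add_apply]
      linear_combination CharTwo.add_self_eq_zero (β ((a : AddMonoid.End (V ⧸ F)) (π x)) (π y))
        - CharTwo.add_self_eq_zero (h (π z))
    have heq := hτinj _ hmem _ (q a).2 (AddMonoidHom.ext fun u => hβinj (AddMonoidHom.ext fun w => by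
      obtain ⟨x, rfl⟩ := hπ u
      obtain ⟨y, rfl⟩ := hπ w
      refine (hτ _ hmem _ _).trans ?_
      have key : polar (fun x => h (π x)) x y = β ((a : AddMonoid.End (V ⧸ F)) (π x)) (π y) := by
        simp only [polar, map_add, hpol]
        linear_combination CharTwo.add_self_eq_zero (h (π x)) + CharTwo.add_self_eq_zero (h (π y))
      rw [hB, hq a]
      exact key))
    funext u
    obtain ⟨x, rfl⟩ := hπ u
    show h (π x) = (q a : V → ZMod 2) (e.symm (e x))
    rw [e.symm_apply_apply, ← heq]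
  have hQadd : ∀ (a b : E) u, Q (a + b) u = Q a u + Q b u := by
    intro a b
    refine fun u => (congrFun (hQuniq (a + b) (fun u => Q a u + Q b u) ?_ ?_ ?_) u).symm
    · rw [hQ0, hQ0, add_zero]
    · intro g u; rw [hQinv, hQinv]
    · intro u w
      show Q a (u + w) + Q b (u + w) = _
      rw [hQ, hQ, show ((a + b : E) : AddMonoid.End (V ⧸ F)) u =
        (a : AddMonoid.End (V ⧸ F)) u + (b : AddMonoid.End (V ⧸ F)) u from rfl, map_add,
        AddMonoidHom.add_apply]
      ring
  have hQmul : ∀ (t a : E) u, Q t ((a : AddMonoid.End (V ⧸ F)) u) = Q (t * a * a) u := by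
    intro t a
    refine fun u => congrFun (hQuniq (t * a * a) (fun u => Q t ((a : AddMonoid.End _) u)) ?_ ?_ ?_) u
    · show Q t ((a : AddMonoid.End (V ⧸ F)) 0) = 0
      rw [map_zero, hQ0]
    · intro g u
      show Q t ((a : AddMonoid.End (V ⧸ F)) (ρU g u)) = _
      rw [a.2, hQinv]
    · intro u w
      show Q t ((a : AddMonoid.End (V ⧸ F)) (u + w)) = _
      rw [map_add, hQ]
      congr 1
      rw [← hTall a, commutant_comm hirr (t * a) a]
      rfl
  have halt : ∀ (a : E) u, β ((a : AddMonoid.End (V ⧸ F)) u) u = 0 := by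
    intro a u
    obtain ⟨x, rfl⟩ := hπ u
    rw [← hq a, hτ, hB]
    exact polar_self (q a).2.1 hV x
  -- the image group
  let r : L →* (AddMonoid.End (V ⧸ F))ˣ := ρU.toHomUnits
  have hr : ∀ g, ((r g : (AddMonoid.End (V ⧸ F))ˣ) : AddMonoid.End (V ⧸ F)) = ρU g := fun g => rfl
  haveI : Finite (AddMonoid.End (V ⧸ F)) :=
    Finite.of_injective (fun f : AddMonoid.End (V ⧸ F) => (⇑f : (V ⧸ F) → (V ⧸ F)))
      DFunLike.coe_injective
  haveI : Finite r.range := Finite.of_injective
    (fun x : r.range => ((x : (AddMonoid.End (V ⧸ F))ˣ) : AddMonoid.End (V ⧸ F)))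
    fun a b h => Subtype.ext (Units.ext h)
  have hperf : commutator r.range = ⊤ := by
    rw [eq_top_iff]
    rintro x -
    obtain ⟨g, rfl⟩ := r.rangeRestrict_surjective x
    have h : (commutator L).map r.rangeRestrict ≤ commutator r.range := by
      rw [commutator_def, commutator_def, Subgroup.map_commutator]
      exact Subgroup.commutator_mono le_top le_top
    exact h ⟨g, hL ▸ Subgroup.mem_top g, rfl⟩
  letI : MulAction r.range (V ⧸ F) :=
    { smul := fun x u => ((x : (AddMonoid.End (V ⧸ F))ˣ) : AddMonoid.End (V ⧸ F)) u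
      one_smul := fun u => rfl
      mul_smul := fun a b u => rfl }
  obtain ⟨S⟩ : Nonempty (Sylow 2 r.range) := inferInstance
  have hsmul : ∀ (x : r.range) (u : V ⧸ F),
      x • u = ((x : (AddMonoid.End (V ⧸ F))ˣ) : AddMonoid.End (V ⧸ F)) u := fun x u => rfl
  obtain ⟨u₀, hu₀, hfix⟩ : ∃ u : V ⧸ F, u ≠ 0 ∧ ∀ s ∈ (S : Subgroup r.range), s • u = u := by
    have hdvd : 2 ∣ Nat.card (V ⧸ F) := by
      obtain ⟨u, hu⟩ := exists_ne (0 : V ⧸ F)
      have := addOrderOf_dvd_natCard u
      rwa [addOrderOf_eq_prime (p := 2) (by rw [two_nsmul, hUV]) hu] at this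
    obtain ⟨b, hb, hne⟩ := S.2.exists_fixed_point_of_prime_dvd_card_of_fixed_point (V ⧸ F) hdvd
      (a := 0) fun s => by
        show (s : r.range) • (0 : V ⧸ F) = 0
        rw [hsmul, map_zero]
    exact ⟨b, fun e => hne e.symm, fun s hs => hb ⟨s, hs⟩⟩
  obtain ⟨v₀, hv₀⟩ := hout hu₀
  have hbasis : ∀ x, ∃ a b : E,
      (a : AddMonoid.End (V ⧸ F)) u₀ + (b : AddMonoid.End (V ⧸ F)) v₀ = x := by
    intro x
    haveI : Fintype E := Fintype.ofFinite _
    haveI : Fintype (V ⧸ F) := Fintype.ofFinite _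
    have hc : Fintype.card (E × E) = Fintype.card (V ⧸ F) := by
      rw [← Nat.card_eq_fintype_card, ← Nat.card_eq_fintype_card, Nat.card_prod, hUE]
    obtain ⟨⟨a, b⟩, hab⟩ := ((Fintype.bijective_iff_injective_and_card _).2 ⟨hpair hu₀ hv₀, hc⟩).2 x
    exact ⟨a, b, hab⟩
  have hnd : ∃ c : E, β ((c : AddMonoid.End (V ⧸ F)) u₀) v₀ ≠ 0 := by
    by_contra hall
    push_neg at hall
    refine hu₀ (hβinj ?_)
    rw [map_zero]
    refine AddMonoidHom.ext fun x => ?_
    obtain ⟨a, b, rfl⟩ := hbasis x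
    rw [map_add, AddMonoidHom.zero_apply, ← hTall a, halt, ← hTall b, hall, add_zero]
  have hstab : ∀ g, ρU g u₀ = u₀ → ∃ a : E,
      ρU g v₀ = v₀ + (a : AddMonoid.End (V ⧸ F)) u₀ ∧
      ∀ t : E, Q t ((a : AddMonoid.End (V ⧸ F)) u₀) =
        β ((t : AddMonoid.End (V ⧸ F)) v₀) ((a : AddMonoid.End (V ⧸ F)) u₀) := by
    intro g hg
    obtain ⟨a, b, hab⟩ := hbasis (ρU g v₀)
    have hb : b = 1 := by
      by_contra hb
      obtain ⟨c, hc⟩ := hnd
      obtain ⟨d, hd⟩ := exists_mul_eq hirr (sub_ne_zero.2 hb) c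
      apply hc
      have h1 := hinvB f₀ hf₀ g ((d : AddMonoid.End (V ⧸ F)) u₀) v₀
      rw [← d.2 g u₀, hg, ← hab, map_add] at h1
      have h2 : β ((d : AddMonoid.End (V ⧸ F)) u₀) ((a : AddMonoid.End (V ⧸ F)) u₀) = 0 := by
        rw [← hTall a]
        exact halt (a * d) u₀
      rw [← hβdef, h2, zero_add, ← hTall b] at h1
      rw [← hd, commutant_comm hirr d]
      show β ((b : AddMonoid.End (V ⧸ F)) ((d : AddMonoid.End (V ⧸ F)) u₀) -
        (d : AddMonoid.End (V ⧸ F)) u₀) v₀ = 0
      rw [map_sub, AddMonoidHom.sub_apply, h1, sub_self]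
    refine ⟨a, ?_, fun t => ?_⟩
    · rw [← hab, hb, add_comm]
      rfl
    · have h1 := hQinv t g v₀
      rw [← hab, hb, add_comm, hQ] at h1
      have h2 : ((1 : E) : AddMonoid.End (V ⧸ F)) v₀ = v₀ := rfl
      rw [h2] at h1
      linear_combination h1 - CharTwo.add_self_eq_zero
        (β ((t : AddMonoid.End (V ⧸ F)) v₀) ((a : AddMonoid.End (V ⧸ F)) u₀))
  -- at most one transvection
  have hkey : ∀ a : E, a ≠ 0 →
      (∀ t : E, Q t ((a : AddMonoid.End (V ⧸ F)) u₀) =
        β ((t : AddMonoid.End (V ⧸ F)) v₀) ((a : AddMonoid.End (V ⧸ F)) u₀)) →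
      ∀ σ : E, Q (σ * a) u₀ = β v₀ ((σ : AddMonoid.End (V ⧸ F)) u₀) := by
    intro a ha hat σ
    obtain ⟨t, ht⟩ := exists_mul_eq hirr ha σ
    rw [← ht, ← hQmul, hat, hTall t]
    rfl
  have huniq : ∀ a b : E, a ≠ 0 → b ≠ 0 →
      (∀ t : E, Q t ((a : AddMonoid.End (V ⧸ F)) u₀) =
        β ((t : AddMonoid.End (V ⧸ F)) v₀) ((a : AddMonoid.End (V ⧸ F)) u₀)) →
      (∀ t : E, Q t ((b : AddMonoid.End (V ⧸ F)) u₀) =
        β ((t : AddMonoid.End (V ⧸ F)) v₀) ((b : AddMonoid.End (V ⧸ F)) u₀)) → a = b := by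
    intro a b ha hb hat hbt
    by_contra hab
    obtain ⟨x, hx⟩ := hπ u₀
    obtain ⟨f, hf, hfx⟩ := hani x fun e0 => hu₀ (by rw [← hx, e0, map_zero])
    set s : E := ⟨τ f hf, hτmem f hf⟩ with hsdef
    obtain ⟨σ, hσ⟩ := exists_mul_eq hirr (sub_ne_zero.2 hab) s
    have hfQ : f = (q s : V → ZMod 2) := hτinj f hf _ (q s).2 (hq s).symm
    apply hfx
    have h0 : Q s u₀ = 0 := by
      have hneg : a - b = a + b := by
        rw [sub_eq_add_neg]
        congr 1
        refine Subtype.ext (AddMonoidHom.ext fun u => ?_)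
        show -((b : AddMonoid.End (V ⧸ F)) u) = (b : AddMonoid.End (V ⧸ F)) u
        exact neg_eq_of_add_eq_zero_left (hUV _)
      rw [← hσ, hneg, mul_add, hQadd, hkey a ha hat, hkey b hb hbt, CharTwo.add_self_eq_zero]
    rw [hfQ]
    have hxe : e.symm u₀ = x := by rw [← hx]; exact e.symm_apply_apply x
    rw [← hxe]; exact h0
  have hS : Nat.card S ≤ 2 := by
    show Nat.card (S : Subgroup r.range) ≤ 2
    have hfixg : ∀ s : S, ∃ a : E,
        ((s : r.range) : (AddMonoid.End (V ⧸ F))ˣ).val v₀ = v₀ + (a : AddMonoid.End (V ⧸ F)) u₀ ∧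
        (∀ t : E, Q t ((a : AddMonoid.End (V ⧸ F)) u₀) =
          β ((t : AddMonoid.End (V ⧸ F)) v₀) ((a : AddMonoid.End (V ⧸ F)) u₀)) := by
      intro s
      obtain ⟨g, hg⟩ := (s : r.range).2
      obtain ⟨a, ha⟩ := hstab g (by
        have := hfix s s.2
        rw [hsmul, ← hg] at this
        exact this)
      exact ⟨a, by rw [← hg]; exact ha.1, ha.2⟩
    choose a ha hat using hfixg
    have hinj : Function.Injective fun s : S => if a s = 0 then false else true := by
      intro s s' hss
      have haa : a s = a s' := by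
        by_cases h1 : a s = 0 <;> by_cases h2 : a s' = 0
        · rw [h1, h2]
        · simp [h1, h2] at hss
        · simp [h1, h2] at hss
        · exact huniq _ _ h1 h2 (hat s) (hat s')
      have hv : ((s : r.range) : (AddMonoid.End (V ⧸ F))ˣ).val v₀ =
          ((s' : r.range) : (AddMonoid.End (V ⧸ F))ˣ).val v₀ := by rw [ha, ha, haa]
      have hu : ∀ s : S, ((s : r.range) : (AddMonoid.End (V ⧸ F))ˣ).val u₀ = u₀ := fun s => by
        rw [← hsmul]; exact hfix s s.2
      refine Subtype.ext (Subtype.ext (Units.ext (AddMonoidHom.ext fun x => ?_)))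
      obtain ⟨p, p', rfl⟩ := hbasis x
      have hlin : ∀ (s : S) (c : E) (y : V ⧸ F),
          ((s : r.range) : (AddMonoid.End (V ⧸ F))ˣ).val ((c : AddMonoid.End (V ⧸ F)) y) =
          (c : AddMonoid.End (V ⧸ F)) (((s : r.range) : (AddMonoid.End (V ⧸ F))ˣ).val y) := by
        intro s c y
        obtain ⟨g, hg⟩ := (s : r.range).2
        rw [← hg]
        exact (c.2 g y).symm
      have hadd : ∀ (f : AddMonoid.End (V ⧸ F)) (a b : V ⧸ F), f (a + b) = f a + f b :=
        fun f => map_add f
      refine (hadd _ _ _).trans (Eq.trans ?_ (hadd _ _ _).symm)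
      rw [hlin, hlin, hlin, hlin, hu, hu, hv]
    have := Nat.card_le_card_of_injective _ hinj
    rw [Nat.card_eq_fintype_card (α := Bool), Fintype.card_bool] at this
    exact this
  haveI := subsingleton_of_perfect_sylow hFT hperf S hS
  apply hncomm
  intro a b
  have h : r.rangeRestrict a * r.rangeRestrict b = r.rangeRestrict b * r.rangeRestrict a :=
    Subsingleton.elim _ _
  exact congrArg (fun x : r.range => ((x : (AddMonoid.End (V ⧸ F))ˣ) : AddMonoid.End (V ⧸ F))) h

end CfsgLib.OutSylowTwo
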