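import Cfsg.Agent.OutSylowTwo.Field
import Cfsg.Agent.Zsigmondy.Main
import Cfsg.Agent.Chars.Apps.Burnside

/-!
# Normalisers of transitive groups of automorphisms of elementary abelian 2-groups

If `Y ≤ Aut A` is transitive on the non-identity elements of an elementary abelian 2-group `A`,
then a subgroup of the normaliser of `Y` meeting `Y` in a solvable group is solvable.
-/

set_option autoImplicit false
set_option linter.style.haveILetI false

namespace CfsgLib.OutSylowTwo

open MulAction

universe u

variable {A : Type u} [CommGroup A] [Finite A]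

/-- The endomorphism of an automorphism. -/
def endHom (A : Type u) [CommGroup A] : MulAut A →* AddMonoid.End (Additive A) where
  toFun φ := MonoidHom.toAdditive φ.toMonoidHom
  map_one' := rfl
  map_mul' _ _ := rfl

theorem endHom_injective : Function.Injective (endHom A) := fun φ ψ h =>
  MulEquiv.ext fun a => congrArg Additive.toMul (DFunLike.congr_fun h (Additive.ofMul a))

omit [Finite A] in
theorem endHom_apply (φ : MulAut A) (a : A) :
    endHom A φ (Additive.ofMul a) = Additive.ofMul (φ a) := rfl

theorem finite_mulAut : Finite (MulAut A) :=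
  Finite.of_injective (fun e : MulAut A => (⇑e : A → A)) DFunLike.coe_injective

theorem exists_card_eq_two_pow (hA : ∀ a : A, a * a = 1) : ∃ n, Nat.card A = 2 ^ n := by
  haveI : Fact (Nat.Prime 2) := ⟨Nat.prime_two⟩
  exact IsPGroup.iff_card.1 (fun a => ⟨1, by rw [pow_one, sq, hA]⟩)

/-- Irreducibility from the orbit lengths. -/
theorem isIrr_of_orbit (hA : ∀ a : A, a * a = 1) (C : Subgroup (MulAut A)) {q n : ℕ}
    (hcard : Nat.card A = 2 ^ n) (hn : 0 < n)
    (hq : ∀ m, 0 < m → m < n → ¬ q ∣ 2 ^ m - 1)
    (horb : ∀ a : A, a ≠ 1 → q ∣ Nat.card (orbit C a)) :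
    IsIrr ((endHom A).comp C.subtype) := by
  classical
  have hnt : Nontrivial A := Finite.one_lt_card_iff_nontrivial.1 (by
    rw [hcard]; exact Nat.one_lt_two_pow hn.ne')
  refine ⟨inferInstance, fun W hW => ?_⟩
  let W' : Subgroup A := AddSubgroup.toSubgroup' W
  obtain ⟨m, hm⟩ : ∃ m, Nat.card W' = 2 ^ m := by
    haveI : Fact (Nat.Prime 2) := ⟨Nat.prime_two⟩
    exact IsPGroup.iff_card.1 (fun a : W' => ⟨1, by
      apply Subtype.ext
      rw [pow_one, SubmonoidClass.coe_pow, sq, hA, OneMemClass.coe_one]⟩)
  by_cases hbot : W = ⊥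
  · exact Or.inl hbot
  right
  have hm0 : 0 < m := by
    by_contra h
    obtain rfl : m = 0 := by omega
    rw [pow_zero, Subgroup.card_eq_one] at hm
    apply hbot
    rw [eq_bot_iff]
    intro x hx
    have : Additive.toMul x ∈ W' := hx
    rw [hm, Subgroup.mem_bot] at this
    exact AddSubgroup.mem_bot.2 (Additive.toMul.injective this)
  have hle : m ≤ n := (Nat.pow_dvd_pow_iff_le_right (by norm_num)).1
    (hm ▸ hcard ▸ Subgroup.card_subgroup_dvd_card W')
  by_cases hmn : m = n
  · subst hmn
    have := Subgroup.eq_top_of_card_eq W' (hm.trans hcard.symm)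
    rw [eq_top_iff]
    intro x _
    exact (this ▸ Subgroup.mem_top (Additive.toMul x) : Additive.toMul x ∈ W')
  exfalso
  refine hq m hm0 (by omega) ?_
  haveI : Fintype W' := Fintype.ofFinite _
  letI : MulAction C {w : W' // w ≠ 1} :=
    { smul := fun c w => ⟨⟨(c : MulAut A) (w : W'), hW c (Additive.ofMul ((w : W') : A)) (w : W').2⟩,
        fun h => w.2 (Subtype.ext ((MulEquiv.map_eq_one_iff _).1 (congrArg Subtype.val h)))⟩
      one_smul := fun w => Subtype.ext (Subtype.ext rfl)
      mul_smul := fun a b w => Subtype.ext (Subtype.ext rfl) }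
  have hk : Nat.card {w : W' // w ≠ 1} = 2 ^ m - 1 := by
    rw [← hm, Nat.card_eq_fintype_card, Nat.card_eq_fintype_card, Fintype.card_subtype_compl,
      Fintype.card_subtype_eq]
  have hq' : ∀ w : {w : W' // w ≠ 1}, q ∣ Nat.card (orbit C w) := fun w => by
    have h := horb ((w : W') : A) fun e => w.2 (Subtype.ext e)
    rw [Nat.card_congr (orbitEquivQuotientStabilizer C ((w : W') : A))] at h
    rw [Nat.card_congr (orbitEquivQuotientStabilizer C w)]
    have hs : stabilizer C w = stabilizer C ((w : W') : A) := by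
      ext c
      rw [mem_stabilizer_iff, mem_stabilizer_iff]
      exact ⟨fun h => congrArg (fun z : {w : W' // w ≠ 1} => ((z : W') : A)) h,
        fun h => Subtype.ext (Subtype.ext h)⟩
    rw [hs]
    exact h
  rw [← hk, Nat.card_congr (selfEquivSigmaOrbits C {w : W' // w ≠ 1}), Nat.card_sigma]
  exact Finset.dvd_sum fun O _ => hq' O.out

/-- The automorphisms of an elementary abelian 2-group as matrices. -/
theorem card_mulAut_dvd (hA : ∀ a : A, a * a = 1) {n : ℕ} (hcard : Nat.card A = 2 ^ n) :
    Nat.card (MulAut A) ∣ ∏ i : Fin n, (2 ^ n - 2 ^ (i : ℕ)) := by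
  haveI : Fact (Nat.Prime 2) := ⟨Nat.prime_two⟩
  letI : Module (ZMod 2) (Additive A) := AddCommGroup.zmodModule fun x => by
    apply Additive.toMul.injective
    rw [toMul_nsmul, toMul_zero, sq]
    exact hA _
  haveI : Module.Finite (ZMod 2) (Additive A) := Module.Finite.of_finite
  have hr : Module.finrank (ZMod 2) (Additive A) = n := by
    have h := Module.natCard_eq_pow_finrank (K := ZMod 2) (V := Additive A)
    rw [show Nat.card (Additive A) = Nat.card A from rfl, hcard, Nat.card_zmod] at h
    exact (Nat.pow_right_injective le_rfl h).symm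
  let b : Module.Basis (Fin n) (ZMod 2) (Additive A) := Module.finBasisOfFinrankEq _ _ hr
  let f : MulAut A →* Matrix (Fin n) (Fin n) (ZMod 2) :=
    { toFun := fun φ => LinearMap.toMatrixAlgEquiv b
        (AddMonoidHom.toZModLinearMap 2 (MonoidHom.toAdditive φ.toMonoidHom))
      map_one' := by
        rw [← map_one (LinearMap.toMatrixAlgEquiv b)]
        congr 1
      map_mul' := fun φ ψ => by
        rw [← map_mul (LinearMap.toMatrixAlgEquiv b)]
        congr 1 }
  have hf : Function.Injective f.toHomUnits := fun φ ψ h => endHom_injective (by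
    have h1 := (LinearMap.toMatrixAlgEquiv b).injective (congrArg Units.val h)
    ext x
    exact DFunLike.congr_fun h1 x)
  have h := Subgroup.card_dvd_of_injective _ hf
  have hq := Matrix.card_GL_field (𝔽 := ZMod 2) n
  rw [ZMod.card] at hq
  exact hq ▸ h

/-- Small faithful permutation groups are solvable. -/
theorem isSolvable_of_perm {H : Type u} [Group H] [Finite H] {X : Type*} [Finite X]
    (hX : Nat.card X ≤ 4) (f : H →* Equiv.Perm X) (hf : Function.Injective f) :
    Group.IsSolvable H := by
  refine CfsgLib.Chars.Apps.isSolvable_of_primeFactors_subset H Nat.prime_two Nat.prime_three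
    fun r hr hd => ?_
  have h1 := hd.trans (Subgroup.card_dvd_of_injective f hf)
  rw [Nat.card_perm] at h1
  have h2 : r ≤ Nat.card X := (Nat.Prime.dvd_factorial hr).1 h1
  have hr4 : r ≠ 4 := fun e => by rw [e] at hr; norm_num at hr
  have := hr.two_le
  omega

/-- The automorphism group of an elementary abelian group of order at most four. -/
theorem isSolvable_mulAut_small {n : ℕ} (hcard : Nat.card A = 2 ^ n) (hn : n ≤ 2) :
    Group.IsSolvable (MulAut A) := by
  haveI := finite_mulAut (A := A)
  refine isSolvable_of_perm (X := A) ?_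
    { toFun := fun φ => φ.toEquiv
      map_one' := rfl
      map_mul' := fun _ _ => rfl } fun φ ψ h => MulEquiv.ext fun a => Equiv.congr_fun h a
  rw [hcard]
  calc 2 ^ n ≤ 2 ^ 2 := Nat.pow_le_pow_right (by norm_num) hn
    _ = 4 := by norm_num

variable (hA : ∀ a : A, a * a = 1) (Y : Subgroup (MulAut A))
  (htrans : ∀ a b : A, a ≠ 1 → b ≠ 1 → ∃ y ∈ Y, y a = b)

include htrans in
/-- Orbit lengths of a Sylow subgroup of a transitive group. -/
theorem orbit_sylow {n r e : ℕ} [Fact r.Prime] (hcard : Nat.card A = 2 ^ n)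
    (hre : r ^ e ∣ 2 ^ n - 1) (R : Sylow r Y) (a : A) (ha : a ≠ 1) :
    r ^ e ∣ Nat.card (orbit ((R : Subgroup Y).map Y.subtype) a) := by
  classical
  haveI := finite_mulAut (A := A)
  set R' := (R : Subgroup Y).map Y.subtype with hR'
  have horbY : Nat.card (orbit Y a) = 2 ^ n - 1 := by
    haveI : Fintype A := Fintype.ofFinite A
    have he : orbit Y a = {x : A | x ≠ 1} := by
      ext x
      constructor
      · rintro ⟨y, rfl⟩ h
        exact ha ((MulEquiv.map_eq_one_iff (y : MulAut A)).1 h)
      · intro hx
        obtain ⟨y, hy, rfl⟩ := htrans a x ha hx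
        exact ⟨⟨y, hy⟩, rfl⟩
    rw [he, ← hcard, Nat.card_eq_fintype_card, Nat.card_eq_fintype_card]
    show Fintype.card {x : A // x ≠ 1} = _
    rw [Fintype.card_subtype_compl, Fintype.card_subtype_eq]
  have hYa : Nat.card Y = (2 ^ n - 1) * Nat.card (stabilizer Y a) := by
    rw [Subgroup.card_eq_card_quotient_mul_card_subgroup (stabilizer Y a),
      ← Nat.card_congr (orbitEquivQuotientStabilizer Y a), horbY]
  have hR'a : Nat.card R' = Nat.card (orbit R' a) * Nat.card (stabilizer R' a) := by
    rw [Subgroup.card_eq_card_quotient_mul_card_subgroup (stabilizer R' a),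
      ← Nat.card_congr (orbitEquivQuotientStabilizer R' a)]
  have hle : R' ≤ Y := Subgroup.map_subtype_le _
  let f : stabilizer R' a →* stabilizer Y a :=
    { toFun := fun c => ⟨⟨((c : R') : MulAut A), hle (c : R').2⟩, c.2⟩
      map_one' := rfl
      map_mul' := fun _ _ => rfl }
  have hf : Function.Injective f := fun c d h => Subtype.ext (Subtype.ext
    (congrArg (fun z : stabilizer Y a => ((z : Y) : MulAut A)) h))
  have hdvd : r ^ e * Nat.card (stabilizer R' a) ∣ Nat.card Y :=
    hYa ▸ mul_dvd_mul hre (Subgroup.card_dvd_of_injective f hf)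
  have hRR : Nat.card R' = Nat.card R := (Nat.card_congr
    (Subgroup.equivMapOfInjective _ _ Y.subtype_injective).toEquiv).symm
  obtain ⟨j, hj⟩ := IsPGroup.iff_card.1 R.2
  obtain ⟨i, hi⟩ : ∃ i, Nat.card (stabilizer R' a) = r ^ i := by
    have : Nat.card (stabilizer R' a) ∣ r ^ j := hj ▸ hRR ▸ Subgroup.card_subgroup_dvd_card _
    obtain ⟨i, -, hi⟩ := (Nat.dvd_prime_pow Fact.out).1 this
    exact ⟨i, hi⟩
  rw [hi, ← pow_add] at hdvd
  have h2 := R.pow_dvd_card_of_pow_dvd_card hdvd
  rw [pow_add] at h2
  refine Nat.dvd_of_mul_dvd_mul_right (Nat.pow_pos (n := i) (Fact.out : r.Prime).pos) ?_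
  rw [← hi, ← hR'a, hRR, hi]
  exact h2

include hA htrans in
/-- The normaliser of a Sylow subgroup of `Y` for a suitable prime is solvable. -/
theorem exists_sylow_normalizer_solvable {n : ℕ} (hcard : Nat.card A = 2 ^ n) (hn : 3 ≤ n) :
    ∃ (r : ℕ) (_ : Fact r.Prime) (R : Sylow r Y),
      Group.IsSolvable (Subgroup.normalizer (((R : Subgroup Y).map Y.subtype) : Set (MulAut A))) := by
  classical
  haveI := finite_mulAut (A := A)
  -- a general reduction
  have hred : ∀ R' : Subgroup (MulAut A), IsIrr ((endHom A).comp R'.subtype) →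
      (∀ M : Subgroup (MulAut R'), M = R'.normalizerMonoidHom.range → Group.IsSolvable M) →
      Group.IsSolvable (Subgroup.normalizer (R' : Set (MulAut A))) := by
    intro R' hirr hM
    haveI := hM _ rfl
    have hc : IsCyclic (Subgroup.centralizer (R' : Set (MulAut A))) :=
      isCyclic_of_commute hirr ((endHom A).comp (Subgroup.centralizer _).subtype)
        (endHom_injective.comp Subtype.val_injective) fun c g x => by
          have h := Subgroup.mem_centralizer_iff.1 c.2 g g.2
          exact (DFunLike.congr_fun (congrArg (endHom A) h) x).symm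
    haveI : Group.IsSolvable R'.normalizerMonoidHom.ker := by
      rw [Subgroup.normalizerMonoidHom_ker]
      haveI : Group.IsSolvable (Subgroup.centralizer (R' : Set (MulAut A))) :=
        Group.isSolvable_of_comm IsCyclic.commGroup.mul_comm
      exact Group.isSolvable_of_isSolvable_injective
        (f := ((Subgroup.normalizer (R' : Set (MulAut A))).subtype.comp
          ((Subgroup.centralizer (R' : Set (MulAut A))).subgroupOf _).subtype).codRestrict
          (Subgroup.centralizer (R' : Set (MulAut A))) fun x => x.2)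
        fun a b h => Subtype.ext (Subtype.ext
          (congrArg (fun z : Subgroup.centralizer (R' : Set (MulAut A)) => (z : MulAut A)) h))
    exact Group.isSolvable_of_ker_le_range R'.normalizerMonoidHom.ker.subtype
      R'.normalizerMonoidHom.rangeRestrict
      (by rw [MonoidHom.ker_rangeRestrict, Subgroup.range_subtype])
  by_cases h6 : n = 6
  · -- sixty-four elements
    subst h6
    haveI : Fact (Nat.Prime 3) := ⟨Nat.prime_three⟩
    obtain ⟨R⟩ : Nonempty (Sylow 3 Y) := inferInstance
    set R' := (R : Subgroup Y).map Y.subtype with hR'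
    have horb := orbit_sylow Y htrans (e := 2) hcard (by norm_num) R
    have hirr : IsIrr ((endHom A).comp R'.subtype) := isIrr_of_orbit hA R' hcard (by norm_num)
      (fun m h1 h2 => by interval_cases m <;> norm_num) horb
    have hGL := card_mulAut_dvd hA hcard
    have hnum : ∏ i : Fin 6, (2 ^ 6 - 2 ^ (i : ℕ)) = 2 ^ 15 * (3 ^ 4 * (5 * 7 ^ 2 * 31)) := by
      simp [Fin.prod_univ_succ]
    rw [hnum] at hGL
    refine ⟨3, inferInstance, R, hred R' hirr fun M hM => ?_⟩
    subst hM
    refine CfsgLib.Chars.Apps.isSolvable_of_primeFactors_subset _ Nat.prime_two Nat.prime_three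
      fun p hp hd => ?_
    by_contra hcon
    push_neg at hcon
    haveI := Fact.mk hp
    have hp5 : p = 5 ∨ p = 7 ∨ p = 31 := by
      have h1 : p ∣ Nat.card (MulAut A) :=
        (hd.trans (Subgroup.card_range_dvd _)).trans (Subgroup.card_subgroup_dvd_card _)
      have h2 := h1.trans hGL
      rcases hp.dvd_mul.1 h2 with h | h
      · exact absurd ((Nat.prime_dvd_prime_iff_eq hp Nat.prime_two).1 (hp.dvd_of_dvd_pow h)) hcon.1
      rcases hp.dvd_mul.1 h with h | h
      · exact absurd ((Nat.prime_dvd_prime_iff_eq hp Nat.prime_three).1 (hp.dvd_of_dvd_pow h)) hcon.2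
      rcases hp.dvd_mul.1 h with h | h
      · rcases hp.dvd_mul.1 h with h | h
        · exact Or.inl ((Nat.prime_dvd_prime_iff_eq hp (by norm_num)).1 h)
        · exact Or.inr (Or.inl ((Nat.prime_dvd_prime_iff_eq hp (by norm_num)).1 (hp.dvd_of_dvd_pow h)))
      · exact Or.inr (Or.inr ((Nat.prime_dvd_prime_iff_eq hp (by norm_num)).1 h))
    obtain ⟨x, hx⟩ := exists_prime_orderOf_dvd_card' p hd
    set φ : MulAut R' := (x : MulAut R') with hφ
    have hφo : orderOf φ = p := by rw [hφ, Subgroup.orderOf_coe, hx]
    have hR3 : IsPGroup 3 R' := R.2.map _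
    obtain ⟨k, hk⟩ := IsPGroup.iff_card.1 hR3
    have hk4 : k ≤ 4 := by
      have h1 : 3 ^ k ∣ 2 ^ 15 * (3 ^ 4 * (5 * 7 ^ 2 * 31)) :=
        hk ▸ (Subgroup.card_subgroup_dvd_card R').trans hGL
      have h2 : 3 ^ k ∣ 3 ^ 4 :=
        Nat.Coprime.dvd_of_dvd_mul_right (Nat.Coprime.pow_left _ (by norm_num : Nat.Coprime 3 (5 * 7 ^ 2 * 31)))
          (Nat.Coprime.dvd_of_dvd_mul_left (Nat.Coprime.pow_left _ (by norm_num : Nat.Coprime 3 (2 ^ 15))) h1)
      exact (Nat.pow_dvd_pow_iff_le_right (by norm_num)).1 h2
    let F : Subgroup R' :=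
      { carrier := {c | φ c = c}
        one_mem' := map_one φ
        mul_mem' := fun {a b} (ha : φ a = a) (hb : φ b = b) => by
          show φ (a * b) = a * b
          rw [map_mul, ha, hb]
        inv_mem' := fun {a} (ha : φ a = a) => by
          show φ a⁻¹ = a⁻¹
          rw [map_inv, ha] }
    obtain ⟨j, hj⟩ := IsPGroup.iff_card.1 (hR3.to_subgroup F)
    have hjk : j ≤ k := (Nat.pow_dvd_pow_iff_le_right (by norm_num)).1
      (hj ▸ hk ▸ Subgroup.card_subgroup_dvd_card F)
    have hzp : IsPGroup p (Subgroup.zpowers φ) :=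
      IsPGroup.of_card (n := 1) (by rw [Nat.card_zpowers, hφo, pow_one])
    have hmod := hzp.card_modEq_card_fixedPoints R'
    have hfix : Nat.card (fixedPoints (Subgroup.zpowers φ) R') = Nat.card F := by
      refine Nat.card_congr (Equiv.subtypeEquivRight fun c => ?_)
      constructor
      · intro h
        exact h ⟨φ, Subgroup.mem_zpowers φ⟩
      · intro h g
        have hle : Subgroup.zpowers φ ≤ stabilizer (MulAut R') c := Subgroup.zpowers_le.2 h
        exact hle g.2
    rw [hfix, hk, hj] at hmod
    have hjk' : j ≠ k := fun e => by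
      have hF : F = ⊤ := Subgroup.eq_top_of_card_eq F (by rw [hj, hk, e])
      have h1 : φ = 1 := MulEquiv.ext fun c => (hF ▸ Subgroup.mem_top c : c ∈ F)
      rw [h1, orderOf_one] at hφo
      exact hp.one_lt.ne hφo
    have hmod' : 3 ^ k % p = 3 ^ j % p := hmod
    have hcase : p = 5 ∧ k = 4 ∧ j = 0 := by
      rcases hp5 with rfl | rfl | rfl <;> interval_cases k <;> interval_cases j <;> omega
    obtain ⟨rfl, rfl, rfl⟩ := hcase
    rw [pow_zero, Subgroup.card_eq_one] at hj
    -- the centre is everything
    let φZ : Subgroup.center R' → Subgroup.center R' := fun c => ⟨φ c, by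
      rw [Subgroup.mem_center_iff]
      intro d
      rw [← MulEquiv.apply_symm_apply φ d, ← map_mul, ← map_mul,
        Subgroup.mem_center_iff.1 c.2]⟩
    letI : MulAction (Subgroup.zpowers φ) (Subgroup.center R') :=
      { smul := fun g c => ⟨(g : MulAut R') c, by
          rw [Subgroup.mem_center_iff]
          intro d
          rw [← MulEquiv.apply_symm_apply (g : MulAut R') d, ← map_mul, ← map_mul,
            Subgroup.mem_center_iff.1 c.2]⟩
        one_smul := fun c => Subtype.ext rfl
        mul_smul := fun a b c => Subtype.ext rfl }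
    have hZfix : Nat.card (fixedPoints (Subgroup.zpowers φ) (Subgroup.center R')) = 1 := by
      rw [Nat.card_eq_one_iff_unique]
      refine ⟨⟨fun a b => Subtype.ext (Subtype.ext ?_)⟩, ⟨⟨1, fun g => Subtype.ext (map_one (g : MulAut R'))⟩⟩⟩
      have h : ∀ c : fixedPoints (Subgroup.zpowers φ) (Subgroup.center R'),
          ((c : Subgroup.center R') : R') = 1 := fun c => by
        have h1 : φ ((c : Subgroup.center R') : R') = ((c : Subgroup.center R') : R') :=
          congrArg Subtype.val (c.2 ⟨φ, Subgroup.mem_zpowers φ⟩)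
        exact Subgroup.mem_bot.1 (hj ▸ h1 : ((c : Subgroup.center R') : R') ∈ (⊥ : Subgroup R'))
      rw [h a, h b]
    have hmZ := hzp.card_modEq_card_fixedPoints (Subgroup.center R')
    obtain ⟨i, hi⟩ := IsPGroup.iff_card.1 (hR3.to_subgroup (Subgroup.center R'))
    have hi4 : i ≤ 4 := (Nat.pow_dvd_pow_iff_le_right (show 1 < 3 by norm_num)).1
      (by rw [← hi, ← hk]; exact Subgroup.card_subgroup_dvd_card _)
    have hi0 : i ≠ 0 := fun e => by
      haveI : Nontrivial R' := Finite.one_lt_card_iff_nontrivial.1 (by rw [hk]; norm_num)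
      have := hR3.center_nontrivial
      exact not_subsingleton (Subgroup.center R') (Finite.card_le_one_iff_subsingleton.1 (by rw [hi, e, pow_zero]))
    rw [hZfix, hi] at hmZ
    have hmZ' : 3 ^ i % 5 = 1 % 5 := hmZ
    have hi' : i = 4 := by interval_cases i <;> omega
    subst hi'
    have htop : Subgroup.center R' = ⊤ := Subgroup.eq_top_of_card_eq _ (hi.trans hk.symm)
    haveI hcyc : IsCyclic R' := by
      haveI : IsCyclic (Subgroup.centralizer (R' : Set (MulAut A))) :=
        isCyclic_of_commute hirr ((endHom A).comp (Subgroup.centralizer _).subtype)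
          (endHom_injective.comp Subtype.val_injective) fun c g x => by
            have h := Subgroup.mem_centralizer_iff.1 c.2 g g.2
            exact (DFunLike.congr_fun (congrArg (endHom A) h) x).symm
      have hle : R' ≤ Subgroup.centralizer (R' : Set (MulAut A)) := fun c hc => by
        rw [Subgroup.mem_centralizer_iff]
        intro d hd
        have := Subgroup.mem_center_iff.1 (htop ▸ Subgroup.mem_top (⟨c, hc⟩ : R')) ⟨d, hd⟩
        exact congrArg Subtype.val this
      exact isCyclic_of_injective (Subgroup.inclusion hle) (Subgroup.inclusion_injective hle)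
    have h54 : Nat.card (MulAut R') = 54 := by
      rw [IsCyclic.card_mulAut, hk, Nat.totient_prime_pow Nat.prime_three (by norm_num)]; norm_num
    have h5 : 5 ∣ 54 := by
      rw [← h54, ← hφo]
      exact orderOf_dvd_natCard φ
    norm_num at h5
  · -- a primitive prime divisor
    obtain ⟨r, hr, hrd, hrk⟩ := CfsgLib.Zsigmondy.exists_isPPD_of_three_le (a := 2) le_rfl hn
      fun h => h6 h.2
    haveI := Fact.mk hr
    obtain ⟨R⟩ : Nonempty (Sylow r Y) := inferInstance
    set R' := (R : Subgroup Y).map Y.subtype with hR'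
    have horb : ∀ a : A, a ≠ 1 → r ∣ Nat.card (orbit R' a) := fun a ha => by
      have := orbit_sylow Y htrans (e := 1) hcard (by rwa [pow_one]) R a ha
      rwa [pow_one] at this
    have hirr : IsIrr ((endHom A).comp R'.subtype) :=
      isIrr_of_orbit hA R' hcard (by omega) hrk horb
    have hRp : IsPGroup r R' := R.2.map _
    haveI : Nontrivial A := Finite.one_lt_card_iff_nontrivial.1 (by
      rw [hcard]; exact Nat.one_lt_two_pow (by omega))
    obtain ⟨a₀, ha₀⟩ := exists_ne (1 : A)
    have hrR : r ∣ Nat.card R' := by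
      refine (horb a₀ ha₀).trans ?_
      rw [Nat.card_congr (orbitEquivQuotientStabilizer R' a₀)]
      exact Subgroup.card_quotient_dvd_card _
    haveI : Nontrivial R' := Finite.one_lt_card_iff_nontrivial.1
      (lt_of_lt_of_le hr.one_lt (Nat.le_of_dvd Nat.card_pos hrR))
    haveI := hRp.center_nontrivial
    obtain ⟨z₁, hz₁⟩ := exists_ne (1 : Subgroup.center R')
    have hzc : ∃ z : R', z ∈ Subgroup.center R' ∧ z ≠ 1 :=
      ⟨z₁, z₁.2, fun e => hz₁ (Subtype.ext e)⟩
    obtain ⟨z, hzZ, hz1⟩ := hzc
    set Cz := Subgroup.zpowers (z : MulAut A) with hCz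
    have hzfix : ∀ a : A, (z : MulAut A) a = a → a = 1 := by
      let F : AddSubgroup (Additive A) :=
        { carrier := {x | endHom A (z : MulAut A) x = x}
          zero_mem' := map_zero _
          add_mem' := fun {a b} (ha : endHom A (z : MulAut A) a = a)
              (hb : endHom A (z : MulAut A) b = b) => by
            show endHom A (z : MulAut A) (a + b) = a + b
            rw [map_add, ha, hb]
          neg_mem' := fun {a} (ha : endHom A (z : MulAut A) a = a) => by
            show endHom A (z : MulAut A) (-a) = -a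
            rw [map_neg, ha] }
      intro a ha
      rcases hirr.2 F (fun g x (hx : endHom A (z : MulAut A) x = x) => by
          show endHom A (z : MulAut A) (endHom A (g : MulAut A) x) = endHom A (g : MulAut A) x
          have h := congrArg (fun w : R' => endHom A (w : MulAut A))
            (Subgroup.mem_center_iff.1 hzZ g)
          simp only [Subgroup.coe_mul, map_mul] at h
          have h' := DFunLike.congr_fun h x
          conv_rhs => rw [← hx]
          exact h'.symm) with h | h
      · exact congrArg Additive.toMul ((AddSubgroup.mem_bot).1 (h ▸ (show Additive.ofMul a ∈ F from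
          congrArg Additive.ofMul ha)))
      · exfalso
        apply hz1
        refine Subtype.ext (MulEquiv.ext fun b => ?_)
        exact congrArg Additive.toMul (h ▸ AddSubgroup.mem_top (Additive.ofMul b) : _ ∈ F)
    have hirrz : IsIrr ((endHom A).comp Cz.subtype) := by
      refine isIrr_of_orbit hA Cz hcard (by omega) hrk fun a ha => ?_
      have hzR : IsPGroup r Cz := hRp.of_injective
        (Subgroup.inclusion (Subgroup.zpowers_le.2 z.2)) (Subgroup.inclusion_injective _)
      obtain ⟨i, hi⟩ := hzR.card_orbit a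
      rcases Nat.eq_zero_or_pos i with rfl | hi0
      · exfalso
        rw [pow_zero, Nat.card_eq_one_iff_unique] at hi
        haveI := hi.1
        have := Subsingleton.elim (⟨(z : MulAut A) a, ⟨⟨(z : MulAut A), Subgroup.mem_zpowers _⟩, rfl⟩⟩ :
          orbit Cz a) ⟨a, mem_orbit_self a⟩
        exact ha (hzfix a (congrArg Subtype.val this))
      · rw [hi]; exact dvd_pow_self r hi0.ne'
    haveI hcyc : IsCyclic R' := by
      refine isCyclic_of_commute hirrz ((endHom A).comp R'.subtype)
        (endHom_injective.comp Subtype.val_injective) fun c g x => ?_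
      obtain ⟨k, hk⟩ := g.2
      have h : (c : MulAut A) * (g : MulAut A) = (g : MulAut A) * c := by
        have hcz : Commute (c : MulAut A) (z : MulAut A) :=
          congrArg Subtype.val (Subgroup.mem_center_iff.1 hzZ c)
        rw [← hk]
        exact (hcz.zpow_right k).eq
      exact DFunLike.congr_fun (congrArg (endHom A) h) x
    refine ⟨r, inferInstance, R, hred R' hirr fun M _ => ?_⟩
    haveI : Group.IsSolvable (MulAut R') := Group.isSolvable_of_comm fun φ ψ => by
      apply (IsCyclic.mulAutMulEquiv R').injective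
      rw [map_mul, map_mul, mul_comm]
    infer_instance

include hA htrans in
/-- **A subgroup of the normaliser of a transitive group.** -/
theorem isSolvable_of_le_normalizer (Z : Subgroup (MulAut A))
    (hZ : Z ≤ Subgroup.normalizer (Y : Set (MulAut A))) (hZY : Group.IsSolvable (Z ⊓ Y : Subgroup _)) :
    Group.IsSolvable Z := by
  classical
  obtain ⟨n, hcard⟩ := exists_card_eq_two_pow hA
  by_cases hn : n ≤ 2
  · haveI := isSolvable_mulAut_small hcard hn
    infer_instance
  haveI := finite_mulAut (A := A)
  obtain ⟨r, hr, R, hsol⟩ := exists_sylow_normalizer_solvable hA Y htrans hcard (by omega)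
  haveI := hr
  set R' := (R : Subgroup Y).map Y.subtype with hR'
  set N := Subgroup.normalizer (Y : Set (MulAut A)) with hN
  set M := N ⊓ Subgroup.normalizer (R' : Set (MulAut A)) with hM
  have hMle : M ≤ N := inf_le_left
  haveI : Group.IsSolvable M := by
    haveI := hsol
    exact Group.isSolvable_of_isSolvable_injective
      (f := Subgroup.inclusion (inf_le_right : M ≤ Subgroup.normalizer (R' : Set (MulAut A))))
      (Subgroup.inclusion_injective _)
  haveI : (Y.subgroupOf N).Normal := Subgroup.normal_in_normalizer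
  let f : Z →* N ⧸ Y.subgroupOf N := (QuotientGroup.mk' _).comp (Subgroup.inclusion hZ)
  let g : M →* N ⧸ Y.subgroupOf N := (QuotientGroup.mk' _).comp (Subgroup.inclusion hMle)
  haveI : Group.IsSolvable g.range := Group.isSolvable_of_surjective g.rangeRestrict_surjective
  have hrange : f.range ≤ g.range := by
    rintro _ ⟨z, rfl⟩
    set w : N := Subgroup.inclusion hZ z with hw
    obtain ⟨y, hy⟩ := MulAction.exists_smul_eq Y
      (R.mapSurjective (f := (Y.normalizerMonoidHom w).toMonoidHom)
        (Y.normalizerMonoidHom w).surjective) R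
    set m : MulAut A := (y : MulAut A) * (w : MulAut A) with hm
    have hmN : m ∈ N := mul_mem (Subgroup.le_normalizer y.2) w.2
    have hmem : ∀ x : MulAut A, x ∈ R' → m * x * m⁻¹ ∈ R' := by
      rintro _ ⟨x, hx, rfl⟩
      have h1 : y * (Y.normalizerMonoidHom w x) * y⁻¹ ∈ (R : Subgroup Y) := by
        rw [← hy]
        exact ⟨Y.normalizerMonoidHom w x, ⟨x, hx, rfl⟩, rfl⟩
      refine ⟨_, h1, ?_⟩
      show (y : MulAut A) * ((w : MulAut A) * (x : MulAut A) * (w : MulAut A)⁻¹) * (y : MulAut A)⁻¹ =
        m * (x : MulAut A) * m⁻¹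
      rw [hm]; group
    have hmR : m ∈ Subgroup.normalizer (R' : Set (MulAut A)) :=
      Subgroup.mem_normalizer_iff_map_conj_eq.2 (Subgroup.eq_of_le_of_card_ge
        (by rintro _ ⟨x, hx, rfl⟩; exact hmem x hx)
        (le_of_eq (Nat.card_congr (Subgroup.equivMapOfInjective R' (MulAut.conj m).toMonoidHom
          (MulAut.conj m).injective).toEquiv)))
    refine ⟨⟨m, hmN, hmR⟩, ?_⟩
    show QuotientGroup.mk' (Y.subgroupOf N) (⟨m, hmN⟩ : N) = QuotientGroup.mk' (Y.subgroupOf N) w
    have : (⟨m, hmN⟩ : N) = ⟨(y : MulAut A), Subgroup.le_normalizer y.2⟩ * w := Subtype.ext hm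
    rw [this, map_mul, show QuotientGroup.mk' (Y.subgroupOf N)
      (⟨(y : MulAut A), Subgroup.le_normalizer y.2⟩ : N) = 1 from
      (QuotientGroup.eq_one_iff _).2 y.2, one_mul]
  haveI : Group.IsSolvable f.range := Group.isSolvable_of_isSolvable_injective
    (f := Subgroup.inclusion hrange) (Subgroup.inclusion_injective _)
  haveI : Group.IsSolvable f.ker := by
    haveI := hZY
    exact Group.isSolvable_of_isSolvable_injective
      (f := ((Z.subtype).comp f.ker.subtype).codRestrict (Z ⊓ Y) fun x => ⟨(x : Z).2, by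
        have h := MonoidHom.mem_ker.1 x.2
        have h' : Subgroup.inclusion hZ (x : Z) ∈ Y.subgroupOf N :=
          (QuotientGroup.eq_one_iff _).1 h
        exact h'⟩)
      fun a b h => Subtype.ext (Subtype.ext
        (congrArg (fun z : (Z ⊓ Y : Subgroup (MulAut A)) => (z : MulAut A)) h))
  exact Group.isSolvable_of_ker_le_range f.ker.subtype f.rangeRestrict
    (by rw [MonoidHom.ker_rangeRestrict, Subgroup.range_subtype])

end CfsgLib.OutSylowTwo
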