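import Cfsg.Agent.OutSylowTwo.Perfect
import Cfsg.Agent.OutSylowTwo.TransNormalizer
import Cfsg.Agent.OddCons.SylowFixer
import Cfsg.Agent.Coprime.External

/-!
# Solvability criteria for groups of automorphisms of a Sylow 2-subgroup
-/

set_option autoImplicit false
set_option linter.style.haveILetI false

namespace CfsgLib.OutSylowTwo

open CfsgLib.OddCons.SylowFixer

universe u

/-- A finite group all whose perfect subgroups are trivial is solvable. -/
theorem isSolvable_of_perfect_trivial : ∀ (n : ℕ) (K : Type u) [Group K] [Finite K],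
    Nat.card K = n → (∀ L : Subgroup K, commutator L = ⊤ → L = ⊥) → Group.IsSolvable K := by
  intro n
  induction n using Nat.strong_induction_on with
  | _ n ih =>
  intro K _ _ hn h
  by_cases hp : commutator K = ⊤
  · haveI : Subsingleton K := by
      have ht : commutator (⊤ : Subgroup K) = ⊤ := by
        apply Subgroup.map_injective (⊤ : Subgroup K).subtype_injective
        rw [Subgroup.map_subtype_commutator, ← commutator_def, hp, ← MonoidHom.range_eq_map,
          Subgroup.range_subtype]
      exact Subgroup.subsingleton_iff.1 (subsingleton_of_bot_eq_top (h ⊤ ht).symm)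
    exact Group.isSolvable_of_comm fun a b => Subsingleton.elim _ _
  have hlt : Nat.card (commutator K) < n := by
    rcases Nat.lt_or_ge (Nat.card (commutator K)) n with hh | hh
    · exact hh
    · exact absurd (Subgroup.eq_top_of_le_card _ (hn.le.trans hh)) hp
  haveI : Group.IsSolvable (commutator K) := ih _ hlt _ rfl fun L hL => by
    have h' := h (L.map (commutator K).subtype) ?_
    · exact (Subgroup.map_eq_bot_iff_of_injective _ (commutator K).subtype_injective).1 h'
    · let e := L.equivMapOfInjective _ (commutator K).subtype_injective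
      rw [eq_top_iff]
      rintro x -
      have hx : e.symm x ∈ commutator L := by rw [hL]; exact Subgroup.mem_top _
      have hm : (commutator L).map e.toMonoidHom ≤ commutator _ := by
        show Subgroup.map e.toMonoidHom ⁅(⊤ : Subgroup L), (⊤ : Subgroup L)⁆ ≤
          ⁅(⊤ : Subgroup (L.map (commutator K).subtype)), ⊤⁆
        rw [Subgroup.map_commutator]
        exact Subgroup.commutator_mono le_top le_top
      have := hm ⟨_, hx, rfl⟩
      simpa using this
  haveI : Group.IsSolvable (K ⧸ commutator K) := Group.isSolvable_of_comm fun a b =>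
    (inferInstance : Std.Commutative (fun a b : Abelianization K => a * b)).comm a b
  exact (Group.isSolvable_iff_subgroup_quotient (commutator K)).mpr ⟨‹_›, ‹_›⟩

/-- A normal solvable subgroup of odd index. -/
theorem isSolvable_of_normal_odd (hFT : CfsgLib.OddStep.P0205.{u}) {K : Type u} [Group K]
    [Finite K] (N : Subgroup K) [N.Normal] (hN : Group.IsSolvable N) (ho : Odd N.index) :
    Group.IsSolvable K := by
  haveI := hN
  haveI : Group.IsSolvable (K ⧸ N) := hFT (by rwa [← Subgroup.index_eq_card])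
  exact (Group.isSolvable_iff_subgroup_quotient N).mpr ⟨‹_›, ‹_›⟩

section Frattini

variable {P : Type u} [Group P] [Finite P]

theorem commutative_frattini_quotient (hP : IsPGroup 2 P) (a b : P ⧸ frattini P) :
    a * b = b * a := by
  haveI : Fact (Nat.Prime 2) := ⟨Nat.prime_two⟩
  obtain ⟨x, rfl⟩ := QuotientGroup.mk'_surjective (frattini P) a
  obtain ⟨y, rfl⟩ := QuotientGroup.mk'_surjective (frattini P) b
  rw [← commutatorElement_eq_one_iff_mul_comm, ← map_commutatorElement]
  exact (QuotientGroup.eq_one_iff _).2 (CfsgLib.PGroup.commutatorElement_mem_frattini hP x y)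

theorem mul_self_frattini_quotient (hP : IsPGroup 2 P) (a : P ⧸ frattini P) : a * a = 1 := by
  haveI : Fact (Nat.Prime 2) := ⟨Nat.prime_two⟩
  obtain ⟨x, rfl⟩ := QuotientGroup.mk'_surjective (frattini P) a
  rw [← map_mul, ← sq]
  exact (QuotientGroup.eq_one_iff _).2 (CfsgLib.PGroup.pow_prime_mem_frattini hP x)

/-- The action on the Frattini quotient. -/
noncomputable def frattiniAct : MulAut P →* MulAut (P ⧸ frattini P) where
  toFun φ := QuotientGroup.congr (frattini P) (frattini P) φ
    (Subgroup.characteristic_iff_map_eq.1 inferInstance φ)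
  map_one' := MulEquiv.ext fun x => by
    obtain ⟨g, rfl⟩ := QuotientGroup.mk'_surjective _ x
    rfl
  map_mul' a b := MulEquiv.ext fun x => by
    obtain ⟨g, rfl⟩ := QuotientGroup.mk'_surjective _ x
    rfl

theorem frattiniAct_apply (φ : MulAut P) (x : P) :
    frattiniAct φ (x : P ⧸ frattini P) = ((φ x : P) : P ⧸ frattini P) := rfl

/-- The kernel of the action on the Frattini quotient is a 2-group. -/
theorem isPGroup_ker_frattiniAct (hP : IsPGroup 2 P) :
    IsPGroup 2 (frattiniAct (P := P)).ker := by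
  haveI : Fact (Nat.Prime 2) := ⟨Nat.prime_two⟩
  haveI : Finite (MulAut P) :=
    Finite.of_injective (fun e : MulAut P => (⇑e : P → P)) DFunLike.coe_injective
  refine IsPGroup.of_card (n := (Nat.card (frattiniAct (P := P)).ker).primeFactorsList.length)
    (Nat.eq_prime_pow_of_unique_prime_dvd Nat.card_pos.ne' fun {r} hr hrd => ?_)
  by_contra hr2
  haveI := Fact.mk hr
  obtain ⟨φ, hφ⟩ := exists_prime_orderOf_dvd_card' r hrd
  have hcop : (Nat.card (Subgroup.zpowers (φ : MulAut P))).Coprime (Nat.card P) := by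
    obtain ⟨k, hk⟩ := IsPGroup.iff_card.1 hP
    rw [Nat.card_zpowers, Subgroup.orderOf_coe, hφ, hk]
    exact Nat.Coprime.pow_right _ ((Nat.coprime_primes hr Nat.prime_two).2 hr2)
  have h := CfsgLib.Coprime.aut_eq_one_of_frattini_quotient
    (φ := (Subgroup.zpowers (φ : MulAut P)).subtype) hcop (fun a g => by
      have hle : Subgroup.zpowers (φ : MulAut P) ≤ (frattiniAct (P := P)).ker :=
        Subgroup.zpowers_le.2 φ.2
      have h1 := MonoidHom.mem_ker.1 (hle a.2)
      exact QuotientGroup.eq.1 (DFunLike.congr_fun h1 (g : P ⧸ frattini P)).symm)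
  have h1 : φ = 1 := Subtype.ext (MulEquiv.ext fun g =>
    h ⟨(φ : MulAut P), Subgroup.mem_zpowers _⟩ g)
  rw [h1, orderOf_one] at hφ
  exact hr.one_lt.ne hφ

/-- A group of automorphisms is solvable when its image on the Frattini quotient is. -/
theorem isSolvable_of_frattiniAct (hP : IsPGroup 2 P) (R : Subgroup (MulAut P))
    (h : Group.IsSolvable (R.map (frattiniAct (P := P)))) : Group.IsSolvable R := by
  haveI : Fact (Nat.Prime 2) := ⟨Nat.prime_two⟩
  haveI : Finite (MulAut P) :=
    Finite.of_injective (fun e : MulAut P => (⇑e : P → P)) DFunLike.coe_injective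
  let f := (frattiniAct (P := P)).comp R.subtype
  have hker : IsPGroup 2 f.ker :=
    (isPGroup_ker_frattiniAct hP).comap_of_injective R.subtype R.subtype_injective
  haveI : Group.IsNilpotent f.ker := hker.isNilpotent
  haveI := h
  haveI : Group.IsSolvable f.range := by
    rw [show f.range = R.map (frattiniAct (P := P)) by
      rw [MonoidHom.range_eq_map, ← Subgroup.map_map, ← MonoidHom.range_eq_map, Subgroup.range_subtype]]
    infer_instance
  exact Group.isSolvable_of_ker_le_range f.ker.subtype f.rangeRestrict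
    (by rw [MonoidHom.ker_rangeRestrict, Subgroup.range_subtype])

/-- The Frattini quotient of a group generated by few elements. -/
theorem card_frattini_quotient_le (hP : IsPGroup 2 P) (T : Finset P)
    (hT : Subgroup.closure (T : Set P) = ⊤) : Nat.card (P ⧸ frattini P) ≤ 2 ^ T.card := by
  classical
  let π := QuotientGroup.mk' (frattini P)
  letI : CommGroup (P ⧸ frattini P) :=
    { (inferInstance : Group (P ⧸ frattini P)) with
      mul_comm := commutative_frattini_quotient hP }
  have hsurj : Function.Surjective fun U : T.powerset => ∏ t ∈ U.1, π t := by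
    intro v
    have hv : ∃ U, U ⊆ T ∧ ∏ t ∈ U, π t = v := by
      obtain ⟨x, rfl⟩ := QuotientGroup.mk'_surjective (frattini P) v
      have hx : x ∈ Subgroup.closure (T : Set P) := hT ▸ Subgroup.mem_top x
      induction hx using Subgroup.closure_induction with
      | mem y hy => exact ⟨{y}, Finset.singleton_subset_iff.2 hy, Finset.prod_singleton _ _⟩
      | one => exact ⟨∅, Finset.empty_subset _, by rw [Finset.prod_empty, map_one]⟩
      | mul a b _ _ iha ihb =>
        obtain ⟨U, hU, hUa⟩ := iha
        obtain ⟨W, hW, hWb⟩ := ihb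
        refine ⟨symmDiff U W, fun t ht => ?_, ?_⟩
        · rcases Finset.mem_symmDiff.1 ht with h | h
          · exact hU h.1
          · exact hW h.1
        · have hsq : (∏ t ∈ U ∩ W, π t) * (∏ t ∈ U ∩ W, π t) = 1 :=
            mul_self_frattini_quotient hP _
          rw [map_mul, ← hUa, ← hWb, ← Finset.prod_union_inter, ← Finset.sdiff_union_inter (U ∪ W)
            (U ∩ W), Finset.prod_union (Finset.disjoint_sdiff_inter _ _)]
          have h1 : (U ∪ W) ∩ (U ∩ W) = U ∩ W := by ext; simp; tauto
          have h2 : (U ∪ W) \ (U ∩ W) = symmDiff U W := by ext; simp [Finset.mem_symmDiff]; tauto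
          rw [h1, h2, mul_assoc, hsq, mul_one]
      | inv a _ iha =>
        obtain ⟨U, hU, hUa⟩ := iha
        refine ⟨U, hU, ?_⟩
        rw [map_inv, hUa]
        exact eq_inv_of_mul_eq_one_left (mul_self_frattini_quotient hP _)
    obtain ⟨U, hU, hv⟩ := hv
    exact ⟨⟨U, Finset.mem_powerset.2 hU⟩, hv⟩
  calc Nat.card (P ⧸ frattini P) ≤ Nat.card T.powerset := Nat.card_le_card_of_surjective _ hsurj
    _ = 2 ^ T.card := by rw [Nat.card_eq_fintype_card, Fintype.card_coe, Finset.card_powerset]

/-- Two generators. -/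
theorem isSolvable_two_generated (hP : IsPGroup 2 P) {a b : P}
    (h : Subgroup.closure ({a, b} : Set P) = ⊤) (R : Subgroup (MulAut P)) : Group.IsSolvable R := by
  classical
  refine isSolvable_of_frattiniAct hP R ?_
  letI : CommGroup (P ⧸ frattini P) :=
    { (inferInstance : Group (P ⧸ frattini P)) with
      mul_comm := commutative_frattini_quotient hP }
  obtain ⟨n, hn⟩ := exists_card_eq_two_pow (mul_self_frattini_quotient hP)
  have hle : 2 ^ n ≤ 2 ^ 2 := hn ▸ (card_frattini_quotient_le hP {a, b} (by simpa using h)).trans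
    (Nat.pow_le_pow_right (by norm_num) Finset.card_le_two)
  haveI := isSolvable_mulAut_small hn ((Nat.pow_le_pow_iff_right (by norm_num)).1 hle)
  exact Group.isSolvable_of_isSolvable_injective (f := Subgroup.subtype _)
    (Subgroup.subtype_injective _)

/-- Three generators and a normal solvable subgroup which is not a 2-group. -/
theorem isSolvable_three_generated (hP : IsPGroup 2 P) {a b c : P}
    (h : Subgroup.closure ({a, b, c} : Set P) = ⊤) (R M : Subgroup (MulAut P)) (hMR : M ≤ R)
    (hRM : R ≤ Subgroup.normalizer (M : Set (MulAut P))) (hM : Group.IsSolvable M)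
    {x : MulAut P} (hxM : x ∈ M) (hx : x ≠ 1) (hxo : Odd (orderOf x)) : Group.IsSolvable R := by
  classical
  refine isSolvable_of_frattiniAct hP R ?_
  set Q := P ⧸ frattini P
  letI : CommGroup (P ⧸ frattini P) :=
    { (inferInstance : Group (P ⧸ frattini P)) with
      mul_comm := commutative_frattini_quotient hP }
  have hsq := mul_self_frattini_quotient hP
  obtain ⟨n, hn⟩ := exists_card_eq_two_pow hsq
  set F := frattiniAct (P := P)
  by_cases hn2 : n ≤ 2
  · haveI := isSolvable_mulAut_small hn hn2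
    exact Group.isSolvable_of_isSolvable_injective (f := Subgroup.subtype _)
      (Subgroup.subtype_injective _)
  have hn3 : n = 3 := by
    have hcard : ({a, b, c} : Finset P).card ≤ 3 :=
      (Finset.card_insert_le _ _).trans (Nat.succ_le_succ Finset.card_le_two)
    have hle : 2 ^ n ≤ 2 ^ 3 := hn ▸ (card_frattini_quotient_le hP {a, b, c} (by simpa using h)).trans
      (Nat.pow_le_pow_right (by norm_num) hcard)
    have := (Nat.pow_le_pow_iff_right (by norm_num)).1 hle
    omega
  subst hn3
  haveI : Finite (MulAut (P ⧸ frattini P)) := finite_mulAut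
  have hGL : Nat.card (R.map F) ∣ 168 := by
    have h1 := (Subgroup.card_subgroup_dvd_card (R.map F)).trans (card_mulAut_dvd hsq hn)
    have h2 : ∏ i : Fin 3, (2 ^ 3 - 2 ^ (i : ℕ)) = 168 := by simp [Fin.prod_univ_succ]
    rwa [h2] at h1
  by_cases h7 : 7 ∣ Nat.card (R.map F)
  swap
  · refine CfsgLib.Chars.Apps.isSolvable_of_primeFactors_subset _ Nat.prime_two Nat.prime_three
      fun r hr hd => ?_
    have h1 : r ∣ 2 ^ 3 * (3 * 7) := hd.trans hGL
    rcases hr.dvd_mul.1 h1 with h | h
    · exact Or.inl ((Nat.prime_dvd_prime_iff_eq hr Nat.prime_two).1 (hr.dvd_of_dvd_pow h))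
    rcases hr.dvd_mul.1 h with h | h
    · exact Or.inr ((Nat.prime_dvd_prime_iff_eq hr Nat.prime_three).1 h)
    · exact absurd ((Nat.prime_dvd_prime_iff_eq hr (by norm_num)).1 h ▸ hd) h7
  haveI : Fact (Nat.Prime 7) := ⟨by norm_num⟩
  obtain ⟨y, hy⟩ := exists_prime_orderOf_dvd_card' 7 h7
  -- `y` is transitive
  let y' : MulAut (P ⧸ frattini P) := (y : MulAut (P ⧸ frattini P))
  have hyo : orderOf y' = 7 := by rw [Subgroup.orderOf_coe, hy]
  set Cy := Subgroup.zpowers y'
  have hyp : IsPGroup 7 Cy := IsPGroup.of_card (n := 1) (by rw [Nat.card_zpowers, hyo, pow_one])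
  have hfix : ∀ v, y' v = v → v = 1 := by
    let W : Subgroup (P ⧸ frattini P) :=
      { carrier := {v | y' v = v}
        one_mem' := map_one _
        mul_mem' := fun {p q} (hp : y' p = p) (hq : y' q = q) => by
          show y' (p * q) = p * q
          rw [map_mul, hp, hq]
        inv_mem' := fun {p} (hp : y' p = p) => by
          show y' p⁻¹ = p⁻¹
          rw [map_inv, hp] }
    have hmod := hyp.card_modEq_card_fixedPoints (P ⧸ frattini P)
    have hW : Nat.card (MulAction.fixedPoints Cy (P ⧸ frattini P)) = Nat.card W := by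
      refine Nat.card_congr (Equiv.subtypeEquivRight fun v => ?_)
      constructor
      · intro h
        exact h ⟨y', Subgroup.mem_zpowers y'⟩
      · intro h g
        have hle : Cy ≤ MulAction.stabilizer (MulAut (P ⧸ frattini P)) v := Subgroup.zpowers_le.2 h
        exact hle g.2
    obtain ⟨j, hj3, hj⟩ := (Nat.dvd_prime_pow Nat.prime_two).1
      (hn ▸ Subgroup.card_subgroup_dvd_card W)
    rw [hW, hn, hj] at hmod
    have hmod' : 2 ^ 3 % 7 = 2 ^ j % 7 := hmod
    have hj' : j = 0 ∨ j = 3 := by interval_cases j <;> omega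
    intro v hv
    rcases hj' with rfl | rfl
    · rw [pow_zero, Subgroup.card_eq_one] at hj
      exact Subgroup.mem_bot.1 (hj ▸ hv : v ∈ (⊥ : Subgroup (P ⧸ frattini P)))
    · exfalso
      have hWt : W = ⊤ := Subgroup.eq_top_of_card_eq W (hj.trans hn.symm)
      have : y' = 1 := MulEquiv.ext fun w => (hWt ▸ Subgroup.mem_top w : w ∈ W)
      rw [this, orderOf_one] at hyo
      norm_num at hyo
  have horby : ∀ v : P ⧸ frattini P, v ≠ 1 → Nat.card (MulAction.orbit Cy v) = 7 := by
    intro v hv
    obtain ⟨i, hi⟩ := hyp.card_orbit v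
    have hle : Nat.card (MulAction.orbit Cy v) ∣ 7 := by
      rw [Nat.card_congr (MulAction.orbitEquivQuotientStabilizer Cy v), ← hyo, ← Nat.card_zpowers]
      exact Subgroup.card_quotient_dvd_card _
    rcases (Nat.dvd_prime (by norm_num)).1 hle with h | h
    · exfalso
      obtain ⟨hs, -⟩ := Nat.card_eq_one_iff_unique.1 h
      exact hv (hfix v (congrArg Subtype.val (hs.elim
        ⟨y' v, ⟨⟨y', Subgroup.mem_zpowers y'⟩, rfl⟩⟩ ⟨v, MulAction.mem_orbit_self v⟩)))
    · exact h
  have htry : ∀ p q : P ⧸ frattini P, p ≠ 1 → q ≠ 1 → ∃ g ∈ R.map F, g p = q := by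
    intro p q hp hq
    haveI : Fintype (P ⧸ frattini P) := Fintype.ofFinite _
    have hsub : MulAction.orbit Cy p = {v | v ≠ 1} := by
      apply Set.eq_of_subset_of_ncard_le
      · rintro _ ⟨g, rfl⟩ hg
        exact hp ((MulEquiv.map_eq_one_iff (g : MulAut (P ⧸ frattini P))).1 hg)
      · rw [← Nat.card_coe_set_eq, ← Nat.card_coe_set_eq, horby p hp]
        show Nat.card {v : P ⧸ frattini P // v ≠ 1} ≤ 7
        rw [Nat.card_eq_fintype_card, Fintype.card_subtype_compl, Fintype.card_subtype_eq,
          ← Nat.card_eq_fintype_card, hn]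
        norm_num
      · exact Set.toFinite _
    have hq' : q ∈ MulAction.orbit Cy p := hsub ▸ hq
    obtain ⟨g, rfl⟩ := hq'
    have hle : Cy ≤ R.map F := Subgroup.zpowers_le.2 y.2
    exact ⟨g, hle g.2, rfl⟩
  -- the normal subgroup is transitive
  set Y := M.map F with hY
  have hYR : Y ≤ R.map F := Subgroup.map_mono hMR
  have hRY : R.map F ≤ Subgroup.normalizer (Y : Set (MulAut (P ⧸ frattini P))) := by
    rintro _ ⟨r, hr, rfl⟩
    exact Subgroup.le_normalizer_map F ⟨r, hRM hr, rfl⟩
  have hx' : F x ≠ 1 := by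
    intro hF
    obtain ⟨k, hk⟩ := isPGroup_ker_frattiniAct hP ⟨x, hF⟩
    have hk' : x ^ 2 ^ k = 1 := congrArg Subtype.val hk
    have hd := orderOf_dvd_of_pow_eq_one hk'
    have hco : (orderOf x).Coprime (2 ^ k) := Nat.Coprime.pow_right _ (by
      rw [Nat.coprime_comm, Nat.prime_two.coprime_iff_not_dvd]
      exact hxo.not_two_dvd_nat)
    exact hx (orderOf_eq_one_iff.1 (hco.eq_one_of_dvd hd))
  obtain ⟨p₀, hp₀⟩ : ∃ p, F x p ≠ p := by
    by_contra hall
    push_neg at hall
    exact hx' (MulEquiv.ext hall)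
  have hp₀1 : p₀ ≠ 1 := fun e => hp₀ (by rw [e, map_one])
  have hYnorm : ∀ g ∈ R.map F, ∀ z ∈ Y, g * z * g⁻¹ ∈ Y := fun g hg z hz =>
    (Subgroup.mem_normalizer_iff.1 (hRY hg) z).1 hz
  have hYtrans : ∀ p q : P ⧸ frattini P, p ≠ 1 → q ≠ 1 → ∃ g ∈ Y, g p = q := by
    -- orbits of `Y` have equal size dividing seven
    have hxY : F x ∈ Y := ⟨x, hxM, rfl⟩
    have hall : ∀ p, p ≠ 1 → ∃ g ∈ Y, g p ≠ p := by
      intro p hp
      obtain ⟨g, hg, rfl⟩ := htry p₀ p hp₀1 hp
      refine ⟨g * F x * g⁻¹, hYnorm g hg _ hxY, ?_⟩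
      rw [MulAut.mul_apply, MulAut.mul_apply, MulAut.inv_apply_self]
      exact fun e => hp₀ (g.injective e)
    have horbeq : ∀ p q : P ⧸ frattini P, p ≠ 1 → q ≠ 1 →
        Nat.card (MulAction.orbit Y p) = Nat.card (MulAction.orbit Y q) := by
      intro p q hp hq
      obtain ⟨g, hg, rfl⟩ := htry p q hp hq
      refine Nat.card_congr
        { toFun := fun v => ⟨g v.1, ?_⟩
          invFun := fun v => ⟨g.symm v.1, ?_⟩
          left_inv := fun v => Subtype.ext (g.symm_apply_apply _)
          right_inv := fun v => Subtype.ext (g.apply_symm_apply _) }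
      · obtain ⟨z, hz⟩ := v.2
        refine ⟨⟨g * z * g⁻¹, hYnorm g hg _ z.2⟩, ?_⟩
        show g ((z : MulAut (P ⧸ frattini P)) (g⁻¹ (g p))) = g v.1
        rw [MulAut.inv_apply_self, ← hz]
        rfl
      · obtain ⟨z, hz⟩ := v.2
        refine ⟨⟨g⁻¹ * z * g⁻¹⁻¹, hYnorm g⁻¹ (inv_mem hg) _ z.2⟩, ?_⟩
        show g⁻¹ ((z : MulAut (P ⧸ frattini P)) (g⁻¹⁻¹ p)) = g.symm v.1
        rw [inv_inv, ← hz]
        rfl
    haveI : Fintype (P ⧸ frattini P) := Fintype.ofFinite _
    letI : MulAction Y {v : P ⧸ frattini P // v ≠ 1} :=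
      { smul := fun g v => ⟨(g : MulAut (P ⧸ frattini P)) v.1, fun h => v.2
          ((MulEquiv.map_eq_one_iff _).1 h)⟩
        one_smul := fun v => Subtype.ext rfl
        mul_smul := fun g g' v => Subtype.ext rfl }
    have h7card : Nat.card {v : P ⧸ frattini P // v ≠ 1} = 7 := by
      rw [Nat.card_eq_fintype_card, Fintype.card_subtype_compl, Fintype.card_subtype_eq,
        ← Nat.card_eq_fintype_card, hn]
      norm_num
    have horb' : ∀ v : {v : P ⧸ frattini P // v ≠ 1},
        Nat.card (MulAction.orbit Y v) = Nat.card (MulAction.orbit Y v.1) := fun v =>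
      Nat.card_congr
        { toFun := fun w => ⟨w.1.1, by
            obtain ⟨g, hg⟩ := w.2
            exact ⟨g, congrArg Subtype.val hg⟩⟩
          invFun := fun w => ⟨⟨w.1, by
              obtain ⟨g, hg⟩ := w.2
              rw [← hg]
              exact fun h => v.2 ((MulEquiv.map_eq_one_iff (g : MulAut (P ⧸ frattini P))).1 h)⟩, by
            obtain ⟨g, hg⟩ := w.2
            exact ⟨g, Subtype.ext hg⟩⟩
          left_inv := fun w => rfl
          right_inv := fun w => rfl }
    intro p q hp hq
    have hdvd : Nat.card (MulAction.orbit Y p) ∣ 7 := by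
      rw [← h7card, Nat.card_congr (MulAction.selfEquivSigmaOrbits Y {v : P ⧸ frattini P // v ≠ 1}),
        Nat.card_sigma]
      refine Finset.dvd_sum fun O _ => ?_
      rw [horb' O.out, horbeq O.out.1 p O.out.2 hp]
    have hne : Nat.card (MulAction.orbit Y p) ≠ 1 := by
      intro h
      obtain ⟨hs, -⟩ := Nat.card_eq_one_iff_unique.1 h
      obtain ⟨g, hg, hgp⟩ := hall p hp
      exact hgp (congrArg Subtype.val (hs.elim ⟨g p, ⟨⟨g, hg⟩, rfl⟩⟩ ⟨p, MulAction.mem_orbit_self p⟩))
    have h7' := ((Nat.dvd_prime (by norm_num)).1 hdvd).resolve_left hne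
    have hsub : MulAction.orbit Y p = {v | v ≠ 1} := by
      apply Set.eq_of_subset_of_ncard_le
      · rintro _ ⟨g, rfl⟩ hg
        exact hp ((MulEquiv.map_eq_one_iff (g : MulAut (P ⧸ frattini P))).1 hg)
      · rw [← Nat.card_coe_set_eq, ← Nat.card_coe_set_eq, h7']
        exact h7card.le
      · exact Set.toFinite _
    have hq' : q ∈ MulAction.orbit Y p := hsub ▸ hq
    obtain ⟨g, rfl⟩ := hq'
    exact ⟨g, g.2, rfl⟩
  refine isSolvable_of_le_normalizer hsq Y hYtrans (R.map F) hRY ?_
  haveI : Group.IsSolvable Y := by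
    haveI := hM
    exact Group.isSolvable_of_surjective (f := F.subgroupMap M) (F.subgroupMap_surjective M)
  exact Group.isSolvable_of_isSolvable_injective
    (f := Subgroup.inclusion (inf_le_right : R.map F ⊓ Y ≤ Y)) (Subgroup.inclusion_injective _)

end Frattini

section Main

variable {G : Type u} [Group G] [Finite G] (S : Sylow 2 G)

/-- Conjugation on the Sylow subgroup. -/
def conjRes : Subgroup.normalizer ((S : Subgroup G) : Set G) →* stab (S : Subgroup G) where
  toFun g := ⟨MulAut.conj (g : G), conj_mem_stab _ g.2⟩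
  map_one' := Subtype.ext (map_one MulAut.conj)
  map_mul' a b := Subtype.ext (map_mul MulAut.conj (a : G) (b : G))

theorem isSolvable_normalizer (hFT : CfsgLib.OddStep.P0205.{u}) :
    Group.IsSolvable (Subgroup.normalizer ((S : Subgroup G) : Set G)) := by
  haveI : Fact (Nat.Prime 2) := ⟨Nat.prime_two⟩
  set N := Subgroup.normalizer ((S : Subgroup G) : Set G)
  have hle : (S : Subgroup G) ≤ N := Subgroup.le_normalizer
  haveI : Group.IsNilpotent ((S : Subgroup G).subgroupOf N) :=
    (S.2.comap_of_injective N.subtype N.subtype_injective).isNilpotent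
  refine isSolvable_of_normal_odd hFT ((S : Subgroup G).subgroupOf N) inferInstance ?_
  rw [← Nat.not_even_iff_odd, even_iff_two_dvd]
  exact fun h => S.not_dvd_index (h.trans (Subgroup.relIndex_dvd_index_of_le hle))

theorem conjRes_normal (φ : stab (S : Subgroup G)) (g : Subgroup.normalizer ((S : Subgroup G) : Set G)) :
    ∃ h, φ * conjRes S g * φ⁻¹ = conjRes S h := by
  refine ⟨⟨(φ : MulAut G) (g : G), ?_⟩, Subtype.ext (MulEquiv.ext fun x => ?_)⟩
  · rw [Subgroup.mem_normalizer_iff]
    intro x
    obtain ⟨y, rfl⟩ := (φ : MulAut G).surjective x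
    rw [← map_mul, ← map_inv, ← map_mul]
    exact (φ.2 y).trans (((Subgroup.mem_normalizer_iff.1 g.2) y).trans (φ.2 _).symm)
  · show (φ : MulAut G) ((g : G) * (φ : MulAut G)⁻¹ x * (g : G)⁻¹) =
      (φ : MulAut G) (g : G) * x * ((φ : MulAut G) (g : G))⁻¹
    rw [map_mul, map_mul, map_inv, MulAut.apply_inv_self]

theorem out_solvable_two (hFT : CfsgLib.OddStep.P0205.{u}) [IsSimpleGroup G]
    (hS1 : (S : Subgroup G) ≠ ⊥) {a b : (S : Subgroup G)}
    (h : Subgroup.closure ({a, b} : Set (S : Subgroup G)) = ⊤) : Group.IsSolvable (Cfsg.Out G) :=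
  out_isSolvable hFT S hS1 (isSolvable_two_generated S.2 h _)

theorem out_solvable_three (hFT : CfsgLib.OddStep.P0205.{u}) [IsSimpleGroup G]
    (hS1 : (S : Subgroup G) ≠ ⊥) {a b c : (S : Subgroup G)}
    (h : Subgroup.closure ({a, b, c} : Set (S : Subgroup G)) = ⊤)
    {g : G} (hg : g ∈ Subgroup.normalizer ((S : Subgroup G) : Set G)) (hgo : Odd (orderOf g))
    (hgc : g ∉ Subgroup.centralizer ((S : Subgroup G) : Set G)) :
    Group.IsSolvable (Cfsg.Out G) := by
  refine out_isSolvable hFT S hS1 ?_
  set r := (res (S : Subgroup G)).comp (conjRes S) with hr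
  haveI := isSolvable_normalizer S hFT
  refine isSolvable_three_generated S.2 h _ r.range ?_ ?_
    (Group.isSolvable_of_surjective r.rangeRestrict_surjective) (x := r ⟨g, hg⟩) ⟨_, rfl⟩ ?_ ?_
  · rintro _ ⟨n, rfl⟩
    exact ⟨_, rfl⟩
  · rintro _ ⟨φ, rfl⟩
    rw [Subgroup.mem_normalizer_iff]
    have key : ∀ (φ : stab (S : Subgroup G)) z, z ∈ r.range →
        res (S : Subgroup G) φ * z * (res (S : Subgroup G) φ)⁻¹ ∈ r.range := by
      rintro φ _ ⟨n, rfl⟩
      obtain ⟨m, hm⟩ := conjRes_normal S φ n
      refine ⟨m, ?_⟩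
      show res (S : Subgroup G) (conjRes S m) = _
      rw [← hm, map_mul, map_mul, map_inv]
      rfl
    intro z
    refine ⟨key φ z, fun hz => ?_⟩
    have := key φ⁻¹ _ hz
    rw [map_inv] at this
    convert this using 1
    group
  · intro he
    apply hgc
    rw [Subgroup.mem_centralizer_iff]
    intro s hs
    have h1 := congrArg Subtype.val (DFunLike.congr_fun he (⟨s, hs⟩ : (S : Subgroup G)))
    have h2 : g * s * g⁻¹ = s := h1
    exact (mul_inv_eq_iff_eq_mul.1 h2).symm
  · refine hgo.of_dvd_nat ((orderOf_map_dvd r ⟨g, hg⟩).trans (dvd_of_eq ?_))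
    exact (Subgroup.orderOf_coe (⟨g, hg⟩ : Subgroup.normalizer ((S : Subgroup G) : Set G))).symm

set_option maxHeartbeats 1000000 in
theorem out_solvable_involutions (hFT : CfsgLib.OddStep.P0205.{u}) [IsSimpleGroup G]
    (hS1 : (S : Subgroup G) ≠ ⊥)
    (hcomm : ∀ s ∈ S, ∀ t ∈ S, orderOf s = 2 → orderOf t = 2 → s * t = t * s)
    (hconj : ∀ s ∈ S, ∀ t ∈ S, orderOf s = 2 → orderOf t = 2 → ∃ g : G, g * s * g⁻¹ = t) :
    Group.IsSolvable (Cfsg.Out G) := by
  classical
  haveI : Fact (Nat.Prime 2) := ⟨Nat.prime_two⟩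
  have hord : ∀ {s : G}, s * s = 1 → s = 1 ∨ orderOf s = 2 := fun {s} h => by
    by_cases h1 : s = 1
    · exact Or.inl h1
    · exact Or.inr (orderOf_eq_prime (by rw [sq, h]) h1)
  have hcomm' : ∀ s t : G, s ∈ S → t ∈ S → s * s = 1 → t * t = 1 → s * t = t * s := by
    intro s t hs ht hs2 ht2
    rcases hord hs2 with rfl | hs'
    · simp
    rcases hord ht2 with rfl | ht'
    · simp
    exact hcomm s hs t ht hs' ht'
  let A : Subgroup G :=
    { carrier := {s | s ∈ S ∧ s * s = 1}
      one_mem' := ⟨(S : Subgroup G).one_mem, one_mul 1⟩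
      mul_mem' := fun {a b} ha hb => ⟨(S : Subgroup G).mul_mem ha.1 hb.1, by
        rw [show a * b * (a * b) = a * (b * a) * b by group, ← hcomm' a b ha.1 hb.1 ha.2 hb.2]
        calc a * (a * b) * b = (a * a) * (b * b) := by group
          _ = 1 := by rw [ha.2, hb.2, one_mul]⟩
      inv_mem' := fun {a} ha => ⟨(S : Subgroup G).inv_mem ha.1, by
        rw [← mul_inv_rev, ha.2, inv_one]⟩ }
  have hAS : A ≤ (S : Subgroup G) := fun a ha => ha.1
  letI : CommGroup A :=
    { (inferInstance : Group A) with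
      mul_comm := fun a b => Subtype.ext (hcomm' a b a.2.1 b.2.1 a.2.2 b.2.2) }
  have hA : ∀ a : A, a * a = 1 := fun a => Subtype.ext a.2.2
  haveI := finite_mulAut (A := A)
  haveI : Finite (MulAut G) :=
    Finite.of_injective (fun e : MulAut G => (⇑e : G → G)) DFunLike.coe_injective
  have hstabA : ∀ φ ∈ stab (S : Subgroup G), φ ∈ stab A := fun φ hφ x => by
    show φ x ∈ S ∧ φ x * φ x = 1 ↔ x ∈ S ∧ x * x = 1
    rw [← map_mul, MulEquiv.map_eq_one_iff]
    exact and_congr (hφ x) Iff.rfl
  let α : stab (S : Subgroup G) →* MulAut A :=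
    (res A).comp (Subgroup.inclusion fun φ hφ => hstabA φ hφ)
  let β : Subgroup.normalizer (A : Set G) →* MulAut A :=
    (res A).comp ((MulAut.conj.comp (Subgroup.normalizer (A : Set G)).subtype).codRestrict (stab A)
      fun g => conj_mem_stab A g.2)
  -- transitivity
  have htrans : ∀ a b : A, a ≠ 1 → b ≠ 1 → ∃ y ∈ β.range, y a = b := by
    intro a b ha hb
    have ha2 : orderOf (a : G) = 2 := (hord a.2.2).resolve_left fun e => ha (Subtype.ext e)
    have hb2 : orderOf (b : G) = 2 := (hord b.2.2).resolve_left fun e => hb (Subtype.ext e)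
    obtain ⟨g, hg⟩ := hconj _ a.2.1 _ b.2.1 ha2 hb2
    set C := Subgroup.centralizer ({(b : G)} : Set G) with hC
    have hAC : A ≤ C := fun x hx => Subgroup.mem_centralizer_singleton_iff.2
      (hcomm' x b hx.1 b.2.1 hx.2 b.2.2)
    set A' := A.map (MulAut.conj g).toMonoidHom with hA'
    have hA'C : A' ≤ C := by
      rintro _ ⟨x, hx, rfl⟩
      rw [hC, Subgroup.mem_centralizer_singleton_iff, ← hg]
      show g * x * g⁻¹ * (g * a * g⁻¹) = g * a * g⁻¹ * (g * x * g⁻¹)
      calc g * x * g⁻¹ * (g * a * g⁻¹) = g * (x * a) * g⁻¹ := by group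
        _ = _ := by rw [hcomm' x a hx.1 a.2.1 hx.2 a.2.2]; group
    have hAp : IsPGroup 2 A := S.2.to_le hAS
    obtain ⟨T, hT⟩ := (hAp.comap_of_injective C.subtype C.subtype_injective).exists_le_sylow
    obtain ⟨T', hT'⟩ := ((hAp.map (MulAut.conj g).toMonoidHom).comap_of_injective C.subtype
      C.subtype_injective).exists_le_sylow
    obtain ⟨c, hc⟩ := MulAction.exists_smul_eq C T' T
    have hA'' : ∀ x (hx : x ∈ A), (⟨x, hAC hx⟩ : C) ∈ T ∧
        c * ⟨g * x * g⁻¹, hA'C ⟨x, hx, rfl⟩⟩ * c⁻¹ ∈ T := by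
      intro x hx
      refine ⟨hT hx, ?_⟩
      rw [← hc]
      exact ⟨⟨g * x * g⁻¹, hA'C ⟨x, hx, rfl⟩⟩, hT' ⟨x, hx, rfl⟩, rfl⟩
    obtain ⟨U, hU⟩ := (T.2.map C.subtype).exists_le_sylow
    obtain ⟨x, hx⟩ := MulAction.exists_smul_eq G U S
    set h := x * ((c : G) * g) with hh
    have hin : ∀ w ∈ A, x * w * x⁻¹ ∈ A ∧ h * w * h⁻¹ ∈ A := by
      intro w hw
      have key : ∀ t : C, t ∈ T → (t : G) * t = 1 → x * t * x⁻¹ ∈ A := by
        intro t ht ht2
        refine ⟨?_, ?_⟩
        · show x * (t : G) * x⁻¹ ∈ (S : Subgroup G)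
          rw [← hx]
          exact ⟨(t : G), hU ⟨t, ht, rfl⟩, rfl⟩
        · calc x * t * x⁻¹ * (x * t * x⁻¹) = x * ((t : G) * t) * x⁻¹ := by group
            _ = 1 := by rw [ht2]; group
      refine ⟨key _ (hA'' w hw).1 hw.2, ?_⟩
      have := key _ (hA'' w hw).2 (by
        show (c : G) * (g * w * g⁻¹) * (c : G)⁻¹ * ((c : G) * (g * w * g⁻¹) * (c : G)⁻¹) = 1
        calc _ = (c : G) * g * (w * w) * g⁻¹ * (c : G)⁻¹ := by group
          _ = 1 := by rw [hw.2]; group)
      convert this using 1
      simp only [hh, Subgroup.coe_mul, Subgroup.coe_inv]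
      group
    have hnorm : ∀ y : G, (∀ w ∈ A, y * w * y⁻¹ ∈ A) → y ∈ Subgroup.normalizer (A : Set G) :=
      fun y hy => Subgroup.mem_normalizer_iff_map_conj_eq.2 (Subgroup.eq_of_le_of_card_ge
        (by rintro _ ⟨w, hw, rfl⟩; exact hy w hw)
        (le_of_eq (Nat.card_congr (Subgroup.equivMapOfInjective A (MulAut.conj y).toMonoidHom
          (MulAut.conj y).injective).toEquiv)))
    have hk : (c : G) * g ∈ Subgroup.normalizer (A : Set G) := by
      have h1 := hnorm x fun w hw => (hin w hw).1
      have h2 := hnorm h fun w hw => (hin w hw).2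
      have := mul_mem (inv_mem h1) h2
      rwa [hh, inv_mul_cancel_left] at this
    refine ⟨β ⟨_, hk⟩, ⟨_, rfl⟩, Subtype.ext ?_⟩
    show (c : G) * g * a * ((c : G) * g)⁻¹ = b
    calc (c : G) * g * a * ((c : G) * g)⁻¹ = (c : G) * (g * a * g⁻¹) * (c : G)⁻¹ := by group
      _ = (c : G) * b * (c : G)⁻¹ := by rw [hg]
      _ = b := by
        rw [Subgroup.mem_centralizer_singleton_iff.1 c.2, mul_assoc, mul_inv_cancel, mul_one]
  -- the image normalizes the image of the normalizer
  have hnormY : α.range ≤ Subgroup.normalizer (β.range : Set (MulAut A)) := by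
    rintro _ ⟨φ, rfl⟩
    have key : ∀ (φ : stab (S : Subgroup G)) z, z ∈ β.range → α φ * z * (α φ)⁻¹ ∈ β.range := by
      rintro φ _ ⟨n, rfl⟩
      have hφA := hstabA _ φ.2
      have hn : (φ : MulAut G) (n : G) ∈ Subgroup.normalizer (A : Set G) := by
        rw [Subgroup.mem_normalizer_iff]
        intro x
        obtain ⟨y, rfl⟩ := (φ : MulAut G).surjective x
        rw [← map_mul, ← map_inv, ← map_mul]
        exact (hφA y).trans (((Subgroup.mem_normalizer_iff.1 n.2) y).trans (hφA _).symm)
      refine ⟨⟨_, hn⟩, MulEquiv.ext fun x => Subtype.ext ?_⟩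
      show (φ : MulAut G) (n : G) * (x : G) * ((φ : MulAut G) (n : G))⁻¹ =
        (φ : MulAut G) ((n : G) * (φ : MulAut G)⁻¹ (x : G) * (n : G)⁻¹)
      rw [map_mul, map_mul, map_inv, MulAut.apply_inv_self]
    rw [Subgroup.mem_normalizer_iff]
    intro z
    refine ⟨key φ z, fun hz => ?_⟩
    have := key φ⁻¹ _ hz
    rw [map_inv] at this
    convert this using 1
    group
  -- the intersection is solvable
  have hSN : (S : Subgroup G) ≤ Subgroup.normalizer (A : Set G) := fun s hs => by
    rw [Subgroup.mem_normalizer_iff]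
    intro x
    exact ((hstabA _ (conj_mem_stab _ (Subgroup.le_normalizer hs))) x).symm
  have hint : Group.IsSolvable (α.range ⊓ β.range : Subgroup (MulAut A)) := by
    set T := ((S : Subgroup G).subgroupOf (Subgroup.normalizer (A : Set G))).map β with hT
    have hTα : T ≤ α.range := by
      rintro _ ⟨s, hs, rfl⟩
      exact ⟨⟨MulAut.conj (s : G), conj_mem_stab _ (Subgroup.le_normalizer hs)⟩, rfl⟩
    have hTβ : T ≤ β.range := Subgroup.map_le_range _ _
    have hTp : IsPGroup 2 T :=
      (S.2.comap_of_injective _ (Subgroup.normalizer (A : Set G)).subtype_injective).map β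
    have hαT : α.range ≤ Subgroup.normalizer (T : Set (MulAut A)) := by
      rintro _ ⟨φ, rfl⟩
      have key : ∀ (φ : stab (S : Subgroup G)) z, z ∈ T → α φ * z * (α φ)⁻¹ ∈ T := by
        rintro φ _ ⟨s, hs, rfl⟩
        have hs' : (φ : MulAut G) (s : G) ∈ (S : Subgroup G) := (φ.2 _).2 hs
        refine ⟨⟨(φ : MulAut G) (s : G), hSN hs'⟩, hs', MulEquiv.ext fun x => Subtype.ext ?_⟩
        show (φ : MulAut G) (s : G) * (x : G) * ((φ : MulAut G) (s : G))⁻¹ =
          (φ : MulAut G) ((s : G) * (φ : MulAut G)⁻¹ (x : G) * (s : G)⁻¹)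
        rw [map_mul, map_mul, map_inv, MulAut.apply_inv_self]
      rw [Subgroup.mem_normalizer_iff]
      intro z
      refine ⟨key φ z, fun hz => ?_⟩
      have := key φ⁻¹ _ hz
      rw [map_inv] at this
      convert this using 1
      group
    set W := α.range ⊓ β.range
    have hTW : T ≤ W := le_inf hTα hTβ
    haveI : (T.subgroupOf W).Normal :=
      Subgroup.normal_subgroupOf_of_le_normalizer (inf_le_left.trans hαT)
    haveI : Group.IsNilpotent (T.subgroupOf W) :=
      (hTp.comap_of_injective W.subtype W.subtype_injective).isNilpotent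
    refine isSolvable_of_normal_odd hFT (T.subgroupOf W) inferInstance ?_
    rw [← Nat.not_even_iff_odd, even_iff_two_dvd]
    intro h2
    have h3 : 2 ∣ T.relIndex β.range :=
      h2.trans (Dvd.intro _ (Subgroup.relIndex_mul_relIndex T W β.range hTW inf_le_right))
    have h4 : T.relIndex β.range ∣
        ((S : Subgroup G).subgroupOf (Subgroup.normalizer (A : Set G))).index := by
      rw [hT, MonoidHom.range_eq_map, Subgroup.relIndex_map_map, top_sup_eq,
        Subgroup.relIndex_top_right]
      exact Subgroup.index_dvd_of_le le_sup_left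
    exact S.not_dvd_index ((h3.trans h4).trans (Subgroup.relIndex_dvd_index_of_le hSN))
  haveI hαsol : Group.IsSolvable α.range :=
    isSolvable_of_le_normalizer hA β.range htrans α.range hnormY hint
  refine out_isSolvable hFT S hS1 ?_
  -- the automorphisms of `S` fixing `A` pointwise
  set R := (res (S : Subgroup G)).range with hR
  haveI : Finite (MulAut (S : Subgroup G)) :=
    Finite.of_injective (fun e : MulAut (S : Subgroup G) => (⇑e : ↥(S : Subgroup G) → ↥(S : Subgroup G)))
      DFunLike.coe_injective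
  let K : Subgroup (MulAut (S : Subgroup G)) :=
    { carrier := {φ | ∀ x : (S : Subgroup G), x * x = 1 → φ x = x}
      one_mem' := fun _ _ => rfl
      mul_mem' := fun {p q} hp hq x hx => by rw [MulAut.mul_apply, hq x hx, hp x hx]
      inv_mem' := fun {p} hp x hx => by
        conv_lhs => rw [← hp x hx]
        exact MulAut.inv_apply_self _ p x }
  haveI : Group.IsSolvable K := isSolvable_of_perfect_trivial _ K rfl fun L hL => by
    rw [Subgroup.eq_bot_iff_forall]
    intro l hl
    have h := perfect_trivial (L := L) hFT hL _ (S : Subgroup G) rfl S.2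
      (K.subtype.comp L.subtype) (fun g x hx => (g : K).2 x hx) ⟨l, hl⟩
    exact Subtype.ext (MulEquiv.ext h)
  set q := res (S : Subgroup G)
  -- `R` modulo `R ∩ K` is a quotient of a subgroup of the solvable image in `Aut A`
  have hker : ∀ φ : stab (S : Subgroup G), α φ = 1 → q φ ∈ K := by
    intro φ h x hx
    have hx' : (x : G) ∈ A := ⟨x.2, congrArg Subtype.val hx⟩
    have h1 := DFunLike.congr_fun h (⟨(x : G), hx'⟩ : A)
    exact Subtype.ext (congrArg Subtype.val h1 :)
  haveI : Group.IsSolvable (α.ker.map q) :=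
    Group.isSolvable_of_isSolvable_injective (f := Subgroup.inclusion (show α.ker.map q ≤ K from by
      rintro _ ⟨φ, hφ, rfl⟩
      exact hker φ hφ)) (Subgroup.inclusion_injective _)
  haveI hnorm : (α.ker.map q.rangeRestrict).Normal :=
    Subgroup.Normal.map inferInstance _ q.rangeRestrict_surjective
  haveI : Group.IsSolvable (α.ker.map q.rangeRestrict) := by
    have e : (α.ker.map q.rangeRestrict).map q.range.subtype = α.ker.map q := by
      rw [Subgroup.map_map]; rfl
    let i : α.ker.map q.rangeRestrict →* α.ker.map q :=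
      (q.range.subtype.comp (α.ker.map q.rangeRestrict).subtype).codRestrict (α.ker.map q)
        fun x => e ▸ ⟨x.1, x.2, rfl⟩
    exact Group.isSolvable_of_isSolvable_injective (f := i) fun x y h => Subtype.ext (Subtype.ext
      (congrArg (fun z : (α.ker.map q : Subgroup _) => (z : MulAut (S : Subgroup G))) h))
  let f : α.range →* q.range ⧸ α.ker.map q.rangeRestrict :=
    (QuotientGroup.lift α.ker ((QuotientGroup.mk' _).comp q.rangeRestrict) fun φ hφ =>
      (QuotientGroup.eq_one_iff _).2 (Subgroup.mem_map_of_mem q.rangeRestrict hφ)).comp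
      (QuotientGroup.quotientKerEquivRange α).symm.toMonoidHom
  haveI : Group.IsSolvable (q.range ⧸ α.ker.map q.rangeRestrict) :=
    Group.isSolvable_of_surjective (f := f) (by
      intro z
      obtain ⟨w, rfl⟩ := QuotientGroup.mk'_surjective _ z
      obtain ⟨φ, rfl⟩ := q.rangeRestrict_surjective w
      refine ⟨QuotientGroup.quotientKerEquivRange α (φ : stab (S : Subgroup G) ⧸ α.ker), ?_⟩
      simp only [f, MonoidHom.coe_comp, Function.comp_apply, MulEquiv.coe_toMonoidHom,
        MulEquiv.symm_apply_apply]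
      rfl)
  exact (Group.isSolvable_iff_subgroup_quotient (α.ker.map q.rangeRestrict)).mpr ⟨‹_›, ‹_›⟩

end Main

end CfsgLib.OutSylowTwo
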