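import Cfsg.Agent.OutSylowTwo.Aniso
import Cfsg.Agent.PGroup.Frattini

/-!
# Perfect groups fixing the involutions of a 2-group

A finite perfect group of automorphisms of a finite 2-group fixing every element of order at most
two is trivial.
-/

set_option autoImplicit false
set_option linter.style.haveILetI false

namespace CfsgLib.OutSylowTwo

universe u

variable {L : Type*} [Group L]

/-- A homomorphism from a perfect group to a solvable group is trivial. -/
theorem eq_one_of_perfect_solvable {M : Type*} [Group M] (hL : commutator L = ⊤)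
    (hM : Group.IsSolvable M) (f : L →* M) (a : L) : f a = 1 := by
  haveI := hM
  obtain ⟨n, hn⟩ := (Group.isSolvable_def M).1 hM
  have h := map_derivedSeries_le_derivedSeries f n
  rw [derivedSeries_eq_top hL, hn] at h
  exact Subgroup.mem_bot.1 (h ⟨a, Subgroup.mem_top a, rfl⟩)

/-- In a commutative group a non-square is detected by a homomorphism to a group of order two. -/
theorem exists_hom_of_not_square {Z : Type*} [CommGroup Z] {w : Z} (hw : ∀ z : Z, z * z ≠ w) :
    ∃ φ : Z →* Multiplicative (ZMod 2), φ w ≠ 1 := by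
  let N : Subgroup Z := (powMonoidHom 2 : Z →* Z).range
  let W := Additive (Z ⧸ N)
  have hW : ∀ a : W, 2 • a = 0 := by
    intro a
    obtain ⟨z, hz⟩ := QuotientGroup.mk_surjective (Additive.toMul a)
    apply Additive.toMul.injective
    rw [toMul_nsmul, toMul_zero, ← hz, ← QuotientGroup.mk_pow, QuotientGroup.eq_one_iff]
    exact ⟨z, rfl⟩
  letI : Module (ZMod 2) W := AddCommGroup.zmodModule hW
  have hne : (Additive.ofMul ((w : Z) : Z ⧸ N) : W) ≠ 0 := by
    intro h
    have h' : ((w : Z) : Z ⧸ N) = 1 := Additive.ofMul.injective h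
    obtain ⟨z, hz⟩ := (QuotientGroup.eq_one_iff w).1 h'
    exact hw z (by rw [← hz, powMonoidHom_apply, sq])
  obtain ⟨l, hl⟩ : ∃ l : Module.Dual (ZMod 2) W, l (Additive.ofMul ((w : Z) : Z ⧸ N)) ≠ 0 := by
    by_contra hall
    push_neg at hall
    exact hne ((Module.forall_dual_apply_eq_zero_iff (ZMod 2) _).1 hall)
  refine ⟨{ toFun := fun z => Multiplicative.ofAdd (l (Additive.ofMul ((z : Z) : Z ⧸ N)))
            map_one' := by rw [QuotientGroup.mk_one, ofMul_one, map_zero, ofAdd_zero]
            map_mul' := fun a b => by rw [QuotientGroup.mk_mul, ofMul_mul, map_add, ofAdd_add] },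
    fun h => hl ?_⟩
  exact Multiplicative.ofAdd.injective h

/-- **A perfect group fixing all involutions of a 2-group acts trivially.** -/
theorem perfect_trivial (hFT : CfsgLib.OddStep.P0205.{u}) [Finite L] (hL : commutator L = ⊤) :
    ∀ (n : ℕ) (P : Type u) [Group P] [Finite P], Nat.card P = n → IsPGroup 2 P →
    ∀ ρ : L →* MulAut P, (∀ g x, x * x = 1 → ρ g x = x) → ∀ g x, ρ g x = x := by
  classical
  intro n
  induction n using Nat.strong_induction_on with
  | _ n ih =>
  intro P _ _ hn hP ρ hinv2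
  by_contra hcon
  haveI : Fact (Nat.Prime 2) := ⟨Nat.prime_two⟩
  haveI : Group.IsNilpotent P := hP.isNilpotent
  have hprop : ∀ W : Subgroup P, (∀ g, ∀ x ∈ W, ρ g x ∈ W) → W ≠ ⊤ →
      ∀ x ∈ W, ∀ g, ρ g x = x := by
    intro W hW hWt x hx g
    have hlt : Nat.card W < n := by
      rcases Nat.lt_or_ge (Nat.card W) n with h | h
      · exact h
      · exact absurd (Subgroup.eq_top_of_le_card W (hn.le.trans h)) hWt
    let ρW : L →* MulAut W :=
      { toFun := fun g =>
          { toFun := fun w => ⟨ρ g w, hW g w w.2⟩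
            invFun := fun w => ⟨ρ g⁻¹ w, hW g⁻¹ w w.2⟩
            left_inv := fun w => Subtype.ext (by
              show ρ g⁻¹ (ρ g w) = w
              rw [map_inv, MulAut.inv_apply_self])
            right_inv := fun w => Subtype.ext (by
              show ρ g (ρ g⁻¹ w) = w
              rw [map_inv, MulAut.apply_inv_self])
            map_mul' := fun a b => Subtype.ext (map_mul (ρ g) (a : P) b) }
        map_one' := MulEquiv.ext fun w => Subtype.ext (by
          show ρ 1 (w : P) = (w : P)
          rw [map_one]; rfl)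
        map_mul' := fun a b => MulEquiv.ext fun w => Subtype.ext (by
          show ρ (a * b) (w : P) = ρ a (ρ b (w : P))
          rw [map_mul]; rfl) }
    have h := ih _ hlt W rfl (hP.to_subgroup W) ρW
      (fun g y hy => Subtype.ext (hinv2 g y (congrArg Subtype.val hy))) g ⟨x, hx⟩
    exact congrArg Subtype.val h
  let C : Subgroup P := Subgroup.closure {y | ∃ g x, y = x⁻¹ * ρ g x}
  have hCinv : ∀ g, ∀ x ∈ C, ρ g x ∈ C := by
    intro g x hx
    refine Subgroup.closure_induction (p := fun x _ => ρ g x ∈ C) ?_ ?_ ?_ ?_ hx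
    · rintro _ ⟨h, y, rfl⟩
      refine Subgroup.subset_closure ⟨g * h * g⁻¹, ρ g y, ?_⟩
      rw [map_mul, map_inv, map_mul, map_mul, MulAut.mul_apply, MulAut.mul_apply, map_inv,
        MulAut.inv_apply_self]
    · rw [map_one]; exact one_mem _
    · intro a b _ _ ha hb; rw [map_mul]; exact mul_mem ha hb
    · intro a _ ha; rw [map_inv]; exact inv_mem ha
  have hCtop : C = ⊤ := by
    by_contra hne
    apply hcon
    intro g x
    let f : L →* P :=
      { toFun := fun g => x⁻¹ * ρ g x
        map_one' := by rw [map_one]; simp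
        map_mul' := fun a b => by
          have h := hprop C hCinv hne _ (Subgroup.subset_closure ⟨b, x, rfl⟩) a
          rw [map_mul, map_inv] at h
          rw [map_mul, MulAut.mul_apply]
          conv_rhs => rw [← h]
          group }
    have := eq_one_of_perfect_solvable hL inferInstance f g
    exact (inv_mul_eq_one.1 this).symm
  have hcentral : ∀ n : P, (∀ g x, x⁻¹ * ρ g x * n = n * (x⁻¹ * ρ g x)) → n ∈ Subgroup.center P := by
    intro n h
    rw [Subgroup.mem_center_iff]
    intro y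
    have hle : C ≤ Subgroup.centralizer {n} := by
      rw [Subgroup.closure_le]
      rintro _ ⟨g, x, rfl⟩
      exact Subgroup.mem_centralizer_singleton_iff.2 (h g x)
    exact Subgroup.mem_centralizer_singleton_iff.1 (hle (hCtop ▸ Subgroup.mem_top y))
  -- the Frattini subgroup
  set Φ := frattini P with hΦ
  have hΦinv : ∀ g, ∀ x ∈ Φ, ρ g x ∈ Φ := fun g x hx => by
    have h := Subgroup.characteristic_iff_map_eq.1 (inferInstance : (frattini P).Characteristic) (ρ g)
    rw [hΦ, ← h]
    exact Subgroup.mem_map_of_mem _ hx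
  haveI : Nontrivial P := (not_subsingleton_iff_nontrivial).1 fun hs =>
    hcon fun g x => Subsingleton.elim _ _
  have hΦne : Φ ≠ ⊤ := by
    intro e
    refine absurd (frattini_nongenerating (G := P) (K := ⊥) ?_) bot_ne_top
    rw [← hΦ, e, sup_top_eq]
  have hΦfix := hprop Φ hΦinv hΦne
  have hΦZ : Φ ≤ Subgroup.center P := by
    intro n hn
    refine hcentral n fun g x => ?_
    have hmem : x * n * x⁻¹ ∈ Φ := (inferInstance : (frattini P).Normal).conj_mem n hn x
    have h := hΦfix _ hmem g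
    rw [map_mul, map_mul, map_inv, hΦfix n hn g] at h
    calc x⁻¹ * ρ g x * n = x⁻¹ * (ρ g x * n * (ρ g x)⁻¹) * ρ g x := by group
      _ = n * (x⁻¹ * ρ g x) := by rw [h]; group
  have hsq : ∀ x : P, x * x ∈ Φ := by
    intro x
    rw [← sq]
    exact CfsgLib.PGroup.pow_prime_mem_frattini hP x
  have hcomm : ∀ x y : P, x * y * x⁻¹ * y⁻¹ ∈ Φ := by
    intro x y
    rw [← commutatorElement_def]
    exact CfsgLib.PGroup.commutatorElement_mem_frattini hP x y
  have hfixZ : ∀ x, (∀ g, ρ g x = x) → x ∈ Subgroup.center P := by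
    intro x hx
    refine hcentral x fun g y => ?_
    have h := hΦfix _ (hcomm x y) g
    rw [map_mul, map_mul, map_mul, map_inv, map_inv, hx g] at h
    set d := y⁻¹ * ρ g y with hd
    have hy : ρ g y = y * d := by rw [hd]; group
    rw [hy] at h
    have h' : d * x⁻¹ * d⁻¹ = x⁻¹ :=
      calc d * x⁻¹ * d⁻¹ = (x * y)⁻¹ * (x * (y * d) * x⁻¹ * (y * d)⁻¹) * y := by group
        _ = x⁻¹ := by rw [h]; group
    calc d * x = (d * x⁻¹ * d⁻¹)⁻¹ * d := by group
      _ = x * d := by rw [h']; group
  by_cases hab : ∀ x y : P, x * y = y * x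
  · -- the abelian case
    apply hcon
    have hCfix : ∀ g x, ∀ h, ρ h (x⁻¹ * ρ g x) = x⁻¹ * ρ g x := by
      intro g x h
      refine hinv2 h _ ?_
      calc x⁻¹ * ρ g x * (x⁻¹ * ρ g x) = (x⁻¹ * x⁻¹) * (ρ g x * ρ g x) := by
            rw [mul_assoc, ← mul_assoc (ρ g x), hab (ρ g x) x⁻¹]; group
        _ = (x⁻¹ * x⁻¹) * (x * x) := by rw [← map_mul, hΦfix _ (hsq x) g]
        _ = 1 := by group
    intro g x
    have hall : C ≤
        { carrier := {y : P | ρ g y = y}
          one_mem' := map_one _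
          mul_mem' := fun {a b} (ha : ρ g a = a) (hb : ρ g b = b) => by
            show ρ g (a * b) = a * b
            rw [map_mul, ha, hb]
          inv_mem' := fun {a} (ha : ρ g a = a) => by
            show ρ g a⁻¹ = a⁻¹
            rw [map_inv, ha] } := by
      rw [Subgroup.closure_le]
      rintro _ ⟨g', y, rfl⟩
      exact hCfix g' y g
    exact hall (hCtop ▸ Subgroup.mem_top x)
  -- class two
  set Z := Subgroup.center P with hZ
  letI : CommGroup (P ⧸ Z) :=
    { (inferInstance : Group (P ⧸ Z)) with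
      mul_comm := fun a b => by
        obtain ⟨x, rfl⟩ := QuotientGroup.mk_surjective a
        obtain ⟨y, rfl⟩ := QuotientGroup.mk_surjective b
        rw [← QuotientGroup.mk_mul, ← QuotientGroup.mk_mul, QuotientGroup.eq]
        have h := hΦZ (hcomm y⁻¹ x⁻¹)
        rwa [show (x * y)⁻¹ * (y * x) = y⁻¹ * x⁻¹ * y⁻¹⁻¹ * x⁻¹⁻¹ by group] }
  let V := Additive (P ⧸ Z)
  let π : P → V := fun x => Additive.ofMul ((x : P) : P ⧸ Z)
  have hπ : Function.Surjective π := fun v => by
    obtain ⟨x, hx⟩ := QuotientGroup.mk_surjective (Additive.toMul v)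
    exact ⟨x, congrArg Additive.ofMul hx⟩
  have hπmul : ∀ x y, π (x * y) = π x + π y := fun x y => rfl
  have hπ0 : ∀ x, π x = 0 ↔ x ∈ Z := fun x =>
    Additive.ofMul.injective.eq_iff' rfl |>.trans (QuotientGroup.eq_one_iff x)
  have hV : ∀ v : V, v + v = 0 := by
    intro v
    obtain ⟨x, rfl⟩ := hπ v
    rw [← hπmul, hπ0]
    exact hΦZ (hsq x)
  have hmapZ : ∀ g, Z ≤ Z.comap (ρ g : P →* P) := fun g x hx => by
    show ρ g x ∈ Z
    rw [Subgroup.mem_center_iff] at hx ⊢
    intro y
    rw [← MulAut.apply_inv_self P (ρ g) y, ← map_mul, ← map_mul, hx]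
  let ρV : L →* AddMonoid.End V :=
    { toFun := fun g => MonoidHom.toAdditive (QuotientGroup.map Z Z (ρ g : P →* P) (hmapZ g))
      map_one' := AddMonoidHom.ext fun v => by
        obtain ⟨x, rfl⟩ := hπ v
        show π (ρ 1 x) = π x
        rw [map_one]; rfl
      map_mul' := fun a b => AddMonoidHom.ext fun v => by
        obtain ⟨x, rfl⟩ := hπ v
        show π (ρ (a * b) x) = π (ρ a (ρ b x))
        rw [map_mul]; rfl }
  have hρV : ∀ g x, ρV g (π x) = π (ρ g x) := fun _ _ => rfl
  have hani : ∀ v : V, v ≠ 0 → ∃ f ∈ invQuad ρV, f v ≠ 0 := by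
    intro v hv
    obtain ⟨x, rfl⟩ := hπ v
    let w : Z := ⟨x * x, hΦZ (hsq x)⟩
    have hw : ∀ z : Z, z * z ≠ w := by
      intro z hz
      apply hv
      rw [hπ0]
      have hz' : (z : P) * z = x * x := congrArg Subtype.val hz
      have hc := Subgroup.mem_center_iff.1 z.2
      have h1 : (x * (z : P)⁻¹) * (x * (z : P)⁻¹) = 1 := by
        have hc' : (z : P)⁻¹ * x = x * (z : P)⁻¹ := (Subgroup.mem_center_iff.1 (inv_mem z.2) x).symm
        calc (x * (z : P)⁻¹) * (x * (z : P)⁻¹) = x * ((z : P)⁻¹ * x) * (z : P)⁻¹ := by group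
          _ = (x * x) * ((z : P) * z)⁻¹ := by rw [hc']; group
          _ = 1 := by rw [hz', mul_inv_cancel]
      have h2 := mul_mem (hfixZ _ fun g => hinv2 g _ h1) z.2
      rwa [inv_mul_cancel_right] at h2
    letI : CommGroup Z :=
      { (inferInstance : Group Z) with
        mul_comm := fun a b => Subtype.ext (Subgroup.mem_center_iff.1 b.2 (a : P)) }
    obtain ⟨φ, hφ⟩ := exists_hom_of_not_square hw
    let F : P → ZMod 2 := fun y => Multiplicative.toAdd (φ ⟨y * y, hΦZ (hsq y)⟩)
    have hFcongr : ∀ a b : P, π a = π b → F a = F b := by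
      intro a b hab'
      have hz : a⁻¹ * b ∈ Z := QuotientGroup.eq.1 (Additive.ofMul.injective hab')
      have hc := Subgroup.mem_center_iff.1 hz
      show Multiplicative.toAdd (φ _) = Multiplicative.toAdd (φ _)
      have e : (⟨b * b, hΦZ (hsq b)⟩ : Z) = ⟨a * a, hΦZ (hsq a)⟩ * (⟨_, hz⟩ * ⟨_, hz⟩) := by
        apply Subtype.ext
        show b * b = a * a * (a⁻¹ * b * (a⁻¹ * b))
        calc b * b = a * (a⁻¹ * b) * a * (a⁻¹ * b) := by group
          _ = a * (a * (a⁻¹ * b)) * (a⁻¹ * b) := by rw [mul_assoc a (a⁻¹ * b) a, ← hc a]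
          _ = _ := by group
      rw [e, φ.map_mul, φ.map_mul, toAdd_mul, toAdd_mul, CharTwo.add_self_eq_zero, add_zero]
    let f : V → ZMod 2 := fun v => F (hπ v).choose
    have hf : ∀ y, f (π y) = F y := fun y => hFcongr _ _ (hπ (π y)).choose_spec
    have hFone : ∀ (y : P) (hy : y * y ∈ Z), F y = Multiplicative.toAdd (φ ⟨y * y, hy⟩) :=
      fun _ _ => rfl
    -- the polar
    have hk : ∀ a b : P, b⁻¹ * a⁻¹ * b * a ∈ Z := fun a b => by
      have h := hΦZ (hcomm b⁻¹ a⁻¹)
      simpa using h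
    have hpol : ∀ a b : P, F (a * b) = F a + F b +
        Multiplicative.toAdd (φ ⟨_, hk a b⟩) := by
      intro a b
      show Multiplicative.toAdd (φ _) = Multiplicative.toAdd (φ _) + Multiplicative.toAdd (φ _) +
        Multiplicative.toAdd (φ _)
      rw [← toAdd_mul, ← map_mul, ← toAdd_mul, ← map_mul]
      congr 2
      apply Subtype.ext
      show a * b * (a * b) = a * a * (b * b) * (b⁻¹ * a⁻¹ * b * a)
      have hc := Subgroup.mem_center_iff.1 (hk a b)
      calc a * b * (a * b) = a * a * b * (b⁻¹ * a⁻¹ * b * a) * b := by group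
        _ = _ := by rw [mul_assoc _ _ b, ← hc b]; group
    have hbi : ∀ a c b : P, Multiplicative.toAdd (φ ⟨_, hk (a * c) b⟩) =
        Multiplicative.toAdd (φ ⟨_, hk a b⟩) + Multiplicative.toAdd (φ ⟨_, hk c b⟩) := by
      intro a c b
      rw [← toAdd_mul, ← map_mul]
      congr 2
      apply Subtype.ext
      show b⁻¹ * (a * c)⁻¹ * b * (a * c) = (b⁻¹ * a⁻¹ * b * a) * (b⁻¹ * c⁻¹ * b * c)
      have hcz := Subgroup.mem_center_iff.1 (hk a b)
      calc b⁻¹ * (a * c)⁻¹ * b * (a * c) = (b⁻¹ * c⁻¹ * b) * (b⁻¹ * a⁻¹ * b * a) * c := by group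
        _ = _ := by rw [hcz (b⁻¹ * c⁻¹ * b)]; group
    refine ⟨f, ⟨⟨?_, ?_⟩, ?_⟩, ?_⟩
    · rw [show (0 : V) = π 1 from rfl, hf]
      show Multiplicative.toAdd (φ _) = 0
      rw [show (⟨1 * 1, hΦZ (hsq 1)⟩ : Z) = 1 from Subtype.ext (one_mul 1), map_one, toAdd_one]
    · intro a b c
      obtain ⟨a, rfl⟩ := hπ a
      obtain ⟨b, rfl⟩ := hπ b
      obtain ⟨c, rfl⟩ := hπ c
      simp only [polar, ← hπmul, hf]
      rw [hpol (a * b) c, hbi, hpol a c, hpol b c]
      linear_combination CharTwo.add_self_eq_zero (F (a * b)) - CharTwo.add_self_eq_zero (F a)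
        - CharTwo.add_self_eq_zero (F b) - CharTwo.add_self_eq_zero (F c)
    · intro g v
      obtain ⟨y, rfl⟩ := hπ v
      rw [hρV, hf, hf]
      show Multiplicative.toAdd (φ _) = Multiplicative.toAdd (φ _)
      congr 2
      apply Subtype.ext
      show ρ g y * ρ g y = y * y
      rw [← map_mul, hΦfix _ (hsq y) g]
    · rw [hf]
      exact fun h => hφ (Multiplicative.toAdd.injective h)
  have htriv := aniso_trivial hFT hL _ V rfl hV ρV hani
  have hCZ : C ≤ Z := by
    rw [Subgroup.closure_le]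
    rintro _ ⟨g, x, rfl⟩
    exact QuotientGroup.eq.1 (Additive.ofMul.injective (htriv g (π x))).symm
  exact hab fun x y => (Subgroup.mem_center_iff.1 (hCZ (hCtop ▸ Subgroup.mem_top y)) x)

end CfsgLib.OutSylowTwo
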