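import Mathlib

/-!
# Common zeros of few quadratic functions over `ZMod 2`

A subgroup `Φ` of quadratic functions `V → ZMod 2` on a finite elementary abelian 2-group with
`|Φ| ^ 2 < |V|` has a common zero besides `0`.  The proof squares the character sum of each
function.
-/

set_option autoImplicit false

namespace CfsgLib.OutSylowTwo

open Finset

variable {V : Type*} [AddCommGroup V]

/-- The polar of a function into `ZMod 2`. -/
def polar (f : V → ZMod 2) (x y : V) : ZMod 2 := f (x + y) + f x + f y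

/-- A quadratic function: it vanishes at `0` and its polar is biadditive. -/
def IsQuad (f : V → ZMod 2) : Prop :=
  f 0 = 0 ∧ ∀ x y z : V, polar f (x + y) z = polar f x z + polar f y z

theorem polar_comm (f : V → ZMod 2) (x y : V) : polar f x y = polar f y x := by
  unfold polar; rw [add_comm x y]; ring

theorem IsQuad.polar_add_right {f : V → ZMod 2} (hf : IsQuad f) (x y z : V) :
    polar f x (y + z) = polar f x y + polar f x z := by
  rw [polar_comm, hf.2, polar_comm f y, polar_comm f z]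

/-- The sign of an element of `ZMod 2`. -/
def sgn (a : ZMod 2) : ℤ := if a = 0 then 1 else -1

theorem sgn_add (a b : ZMod 2) : sgn (a + b) = sgn a * sgn b := by
  fin_cases a <;> fin_cases b <;> rfl

theorem sgn_mul_self (a : ZMod 2) : sgn a * sgn a = 1 := by
  fin_cases a <;> rfl

variable [Fintype V]

theorem sum_sgn_linear {l : V → ZMod 2} (hl : ∀ x y, l (x + y) = l x + l y) :
    ∃ c : ℤ, ∑ v, sgn (l v) = c * Fintype.card V := by
  by_cases h : ∀ v, l v = 0
  · exact ⟨1, by simp [h, sgn]⟩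
  · push_neg at h
    obtain ⟨v₀, hv₀⟩ := h
    have h1 : l v₀ = 1 := by
      have : ∀ a : ZMod 2, a ≠ 0 → a = 1 := by decide
      exact this _ hv₀
    have hsum : ∑ v, sgn (l v) = ∑ v, sgn (l (v + v₀)) :=
      (Equiv.sum_comp (Equiv.addRight v₀) (fun v => sgn (l v))).symm
    have hneg : ∑ v, sgn (l (v + v₀)) = - ∑ v, sgn (l v) := by
      rw [← Finset.sum_neg_distrib]
      refine Finset.sum_congr rfl fun v _ => ?_
      rw [hl, h1, sgn_add]
      show sgn (l v) * -1 = -sgn (l v)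
      ring
    exact ⟨0, by omega⟩

/-- The square of the character sum of a quadratic function is a multiple of the order. -/
theorem card_dvd_sum_sgn_sq {f : V → ZMod 2} (hf : IsQuad f) :
    (Fintype.card V : ℤ) ∣ (∑ v, sgn (f v)) ^ 2 := by
  have key : ∀ h : V, (Fintype.card V : ℤ) ∣ ∑ v, sgn (f v) * sgn (f (v + h)) := by
    intro h
    obtain ⟨c, hc⟩ := sum_sgn_linear (l := fun v => polar f v h) fun x y => hf.2 x y h
    refine ⟨sgn (f h) * c, ?_⟩
    have : ∀ v, sgn (f v) * sgn (f (v + h)) = sgn (f h) * sgn (polar f v h) := by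
      intro v
      simp only [polar, sgn_add]
      have := sgn_mul_self (f h)
      calc sgn (f v) * sgn (f (v + h)) = 1 * (sgn (f v) * sgn (f (v + h))) := by ring
        _ = _ := by rw [← this]; ring
    rw [Finset.sum_congr rfl fun v _ => this v, ← Finset.mul_sum, hc]
    ring
  rw [sq, Finset.sum_mul_sum]
  have : ∑ i, ∑ j, sgn (f i) * sgn (f j) = ∑ h, ∑ v, sgn (f v) * sgn (f (v + h)) := by
    rw [Finset.sum_comm (γ := V) (f := fun h v => sgn (f v) * sgn (f (v + h)))]
    refine Finset.sum_congr rfl fun i _ => ?_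
    exact (Equiv.sum_comp (Equiv.addLeft i) (fun j => sgn (f i) * sgn (f j))).symm
  rw [this]
  exact Finset.dvd_sum fun h _ => key h

/-- A group of quadratic functions of order `k` with `k ^ 2 < |V|` has a non-zero common zero. -/
theorem exists_common_zero (Φ : AddSubgroup (V → ZMod 2)) [Fintype Φ]
    (hΦ : ∀ f ∈ Φ, IsQuad f) {n : ℕ} (hV : Fintype.card V = 2 ^ n)
    (hlt : Fintype.card Φ ^ 2 < 2 ^ n) : ∃ v : V, v ≠ 0 ∧ ∀ f ∈ Φ, f v = 0 := by
  by_contra hcon
  push_neg at hcon
  haveI : Fact (Nat.Prime 2) := ⟨Nat.prime_two⟩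
  obtain ⟨k, hk⟩ : ∃ k, Fintype.card Φ = 2 ^ k := by
    have hp : IsPGroup 2 (Multiplicative Φ) := fun x => ⟨1, by
      apply Multiplicative.toAdd.injective
      rw [toAdd_pow, pow_one, toAdd_one]
      apply Subtype.ext
      rw [AddSubgroup.coe_nsmul, ZeroMemClass.coe_zero, two_nsmul]
      funext v
      exact CharTwo.add_self_eq_zero _⟩
    obtain ⟨k, hk⟩ := IsPGroup.iff_card.1 hp
    exact ⟨k, by rw [← Nat.card_eq_fintype_card]; exact hk⟩
  rw [hk, ← pow_mul] at hlt
  have hlt' := (Nat.pow_lt_pow_iff_right (by norm_num)).1 hlt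
  have hdiv : ∀ f ∈ Φ, (2 ^ (k + 1) : ℤ) ∣ ∑ v, sgn (f v) := by
    intro f hf
    have h1 := card_dvd_sum_sgn_sq (hΦ f hf)
    rw [hV] at h1
    have h2 : (2 : ℤ) ^ (2 * k + 1) ∣ (∑ v, sgn (f v)) ^ 2 :=
      (pow_dvd_pow 2 (show 2 * k + 1 ≤ n by omega)).trans (by exact_mod_cast h1)
    rw [← Int.natAbs_dvd_natAbs, Int.natAbs_pow, Int.natAbs_pow] at h2
    rw [← Int.natAbs_dvd_natAbs, Int.natAbs_pow]
    change 2 ^ (2 * k + 1) ∣ (∑ v, sgn (f v)).natAbs ^ 2 at h2
    show 2 ^ (k + 1) ∣ (∑ v, sgn (f v)).natAbs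
    rcases eq_or_ne (∑ v, sgn (f v)).natAbs 0 with h0 | h0
    · rw [h0]; exact dvd_zero _
    · have h3 := (padicValNat_dvd_iff_le (p := 2) (pow_ne_zero 2 h0)).1 h2
      rw [padicValNat.pow] at h3
      exact (padicValNat_dvd_iff_le h0).2 (by omega)
  have htot : (2 ^ (k + 1) : ℤ) ∣ ∑ f : Φ, ∑ v, sgn ((f : V → ZMod 2) v) :=
    Finset.dvd_sum fun f _ => hdiv f f.2
  classical
  have heval : ∀ v : V, ∑ f : Φ, sgn ((f : V → ZMod 2) v) = if v = 0 then 2 ^ k else 0 := by
    intro v
    split_ifs with hv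
    · subst hv
      simp [fun f : Φ => (hΦ f f.2).1, sgn, hk]
    · obtain ⟨f₀, hf₀, hf₀v⟩ := hcon v hv
      have h1 : f₀ v = 1 := by
        have : ∀ a : ZMod 2, a ≠ 0 → a = 1 := fun a ha => by fin_cases a <;> first | rfl | exact absurd rfl ha
        exact this _ hf₀v
      have h2 : ∑ f : Φ, sgn ((f : V → ZMod 2) v) = - ∑ f : Φ, sgn ((f : V → ZMod 2) v) := by
        conv_lhs => rw [← Equiv.sum_comp (Equiv.addRight (⟨f₀, hf₀⟩ : Φ))]
        rw [← Finset.sum_neg_distrib]
        refine Finset.sum_congr rfl fun f _ => ?_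
        show sgn ((f : V → ZMod 2) v + f₀ v) = _
        rw [sgn_add, h1]
        show sgn ((f : V → ZMod 2) v) * -1 = _
        ring
      omega
  rw [Finset.sum_comm, Finset.sum_congr rfl (fun v _ => heval v), Finset.sum_ite_eq' ,
    if_pos (Finset.mem_univ _)] at htot
  have h5 : (2 : ℤ) ^ (k + 1) ≤ 2 ^ k := Int.le_of_dvd (by positivity) htot
  have h6 : (2 : ℤ) ^ k < 2 ^ (k + 1) := by
    rw [pow_succ]; nlinarith [show (0 : ℤ) < 2 ^ k by positivity]
  omega

end CfsgLib.OutSylowTwo
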